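import Mathlib
import Cfsg.Prelude.Def_ChevG2
import Cfsg.Agent.Lib.Helper86.Sp4.F4

/-! Data for the 6-dimensional module of `G_2(4)`: the Lie algebra representation `rho` on the
coordinates of the Chevalley basis, the root elements `yM r t`, and their compatibility with the
root elements `x_r(t)` of the adjoint Chevalley group of the Prelude. -/

set_option autoImplicit false

namespace Cfsg.Agent.Lib.Helper56.G24A

open Cfsg.Agent.Lib.Helper86.Sp4F4 Cfsg.Agent.Lib.Helper86.Sp4F4.F4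

abbrev Idx : Type := Cfsg.Lie.chevG2.Idx
abbrev M6 : Type := Matrix (Fin 6) (Fin 6) F4
abbrev M14 : Type := Matrix Idx Idx F4

/-- images of the two coroots. -/
def rhoH : Fin 2 → M6 := ![!![o, z, z, z, z, z; z, o, z, z, z, z; z, z, z, z, z, z; z, z, z, z, z, z; z, z, z, z, o, z; z, z, z, z, z, o],
  !![z, z, z, z, z, z; z, o, z, z, z, z; z, z, o, z, z, z; z, z, z, o, z, z; z, z, z, z, o, z; z, z, z, z, z, z]]

/-- images of the twelve root vectors. -/
def rhoE : Fin 12 → M6 := ![!![z, z, z, z, z, z; z, z, z, z, z, z; z, z, z, z, z, z; z, z, z, z, z, z; o, z, z, z, z, z; z, o, z, z, z, z],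
  !![z, z, z, z, z, z; z, z, z, z, z, z; z, z, z, z, z, z; o, z, z, z, z, z; z, z, z, z, z, z; z, z, o, z, z, z],
  !![z, z, z, z, z, z; z, z, z, z, z, z; z, z, z, z, z, z; z, o, z, z, z, z; z, z, o, z, z, z; z, z, z, z, z, z],
  !![z, z, z, z, z, z; z, z, z, z, z, z; o, z, z, z, z, z; z, z, z, z, z, z; z, z, z, z, z, z; z, z, z, o, z, z],
  !![z, z, z, z, z, z; o, z, z, z, z, z; z, z, z, z, z, z; z, z, z, z, z, z; z, z, z, z, z, z; z, z, z, z, o, z],
  !![z, z, z, z, z, z; z, z, z, z, z, z; z, o, z, z, z, z; z, z, z, z, z, z; z, z, z, o, z, z; z, z, z, z, z, z],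
  !![z, z, z, z, z, z; z, z, o, z, z, z; z, z, z, z, z, z; z, z, z, z, o, z; z, z, z, z, z, z; z, z, z, z, z, z],
  !![z, o, z, z, z, z; z, z, z, z, z, z; z, z, z, z, z, z; z, z, z, z, z, z; z, z, z, z, z, o; z, z, z, z, z, z],
  !![z, z, o, z, z, z; z, z, z, z, z, z; z, z, z, z, z, z; z, z, z, z, z, o; z, z, z, z, z, z; z, z, z, z, z, z],
  !![z, z, z, z, z, z; z, z, z, o, z, z; z, z, z, z, o, z; z, z, z, z, z, z; z, z, z, z, z, z; z, z, z, z, z, z],
  !![z, z, z, o, z, z; z, z, z, z, z, z; z, z, z, z, z, o; z, z, z, z, z, z; z, z, z, z, z, z; z, z, z, z, z, z],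
  !![z, z, z, z, o, z; z, z, z, z, z, o; z, z, z, z, z, z; z, z, z, z, z, z; z, z, z, z, z, z; z, z, z, z, z, z]]

/-- divided squares of the root vectors. -/
def rhoE2 : Fin 12 → M6 := ![!![z, z, z, z, z, z; z, z, z, z, z, z; z, z, z, z, z, z; z, z, z, z, z, z; z, z, z, z, z, z; z, z, z, z, z, z],
  !![z, z, z, z, z, z; z, z, z, z, z, z; z, z, z, z, z, z; z, z, z, z, z, z; z, z, z, z, z, z; z, z, z, z, z, z],
  !![z, z, z, z, z, z; z, z, z, z, z, z; z, z, z, z, z, z; z, z, z, z, z, z; z, z, z, z, z, z; o, z, z, z, z, z],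
  !![z, z, z, z, z, z; z, z, z, z, z, z; z, z, z, z, z, z; z, z, z, z, z, z; z, o, z, z, z, z; z, z, z, z, z, z],
  !![z, z, z, z, z, z; z, z, z, z, z, z; z, z, z, z, z, z; z, z, o, z, z, z; z, z, z, z, z, z; z, z, z, z, z, z],
  !![z, z, z, z, z, z; z, z, z, z, z, z; z, z, z, z, z, z; z, z, z, z, z, z; z, z, z, z, z, z; z, z, z, z, z, z],
  !![z, z, z, z, z, z; z, z, z, z, z, z; z, z, z, z, z, z; z, z, z, z, z, z; z, z, z, z, z, z; z, z, z, z, z, z],
  !![z, z, z, z, z, z; z, z, z, z, z, z; z, z, z, o, z, z; z, z, z, z, z, z; z, z, z, z, z, z; z, z, z, z, z, z],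
  !![z, z, z, z, z, z; z, z, z, z, o, z; z, z, z, z, z, z; z, z, z, z, z, z; z, z, z, z, z, z; z, z, z, z, z, z],
  !![z, z, z, z, z, o; z, z, z, z, z, z; z, z, z, z, z, z; z, z, z, z, z, z; z, z, z, z, z, z; z, z, z, z, z, z],
  !![z, z, z, z, z, z; z, z, z, z, z, z; z, z, z, z, z, z; z, z, z, z, z, z; z, z, z, z, z, z; z, z, z, z, z, z],
  !![z, z, z, z, z, z; z, z, z, z, z, z; z, z, z, z, z, z; z, z, z, z, z, z; z, z, z, z, z, z; z, z, z, z, z, z]]

/-- the representation on the Chevalley basis. -/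
def rho : Idx → M6 := Sum.elim rhoH rhoE

/-- the root element `y_r(t)` on the 6-dimensional module. -/
def yM (r : Fin 12) (t : F4) : M6 := 1 + t • rhoE r + (t * t) • rhoE2 r

/-- the symplectic form. -/
def Bm : M6 := !![z, z, z, z, z, o; z, z, z, z, o, z; z, z, z, o, z, z; z, z, o, z, z, z; z, o, z, z, z, z; o, z, z, z, z, z]

theorem yM_sq : ∀ (r : Fin 12) (t : F4), yM r t * yM r t = 1 := by decide +kernel

theorem yM_symp : ∀ (r : Fin 12) (t : F4), (yM r t).transpose * Bm * yM r t = Bm := by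
  decide +kernel

theorem compat0 : ∀ (t : F4) (i : Idx),
    yM 0 t * rho i = (∑ j : Idx, Cfsg.Lie.chevG2.xMat F4 (0 : Fin 12) t j i • rho j) * yM 0 t := by
  decide +kernel

theorem compat1 : ∀ (t : F4) (i : Idx),
    yM 1 t * rho i = (∑ j : Idx, Cfsg.Lie.chevG2.xMat F4 (1 : Fin 12) t j i • rho j) * yM 1 t := by
  decide +kernel

theorem compat2 : ∀ (t : F4) (i : Idx),
    yM 2 t * rho i = (∑ j : Idx, Cfsg.Lie.chevG2.xMat F4 (2 : Fin 12) t j i • rho j) * yM 2 t := by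
  decide +kernel

theorem compat3 : ∀ (t : F4) (i : Idx),
    yM 3 t * rho i = (∑ j : Idx, Cfsg.Lie.chevG2.xMat F4 (3 : Fin 12) t j i • rho j) * yM 3 t := by
  decide +kernel

theorem compat4 : ∀ (t : F4) (i : Idx),
    yM 4 t * rho i = (∑ j : Idx, Cfsg.Lie.chevG2.xMat F4 (4 : Fin 12) t j i • rho j) * yM 4 t := by
  decide +kernel

theorem compat5 : ∀ (t : F4) (i : Idx),
    yM 5 t * rho i = (∑ j : Idx, Cfsg.Lie.chevG2.xMat F4 (5 : Fin 12) t j i • rho j) * yM 5 t := by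
  decide +kernel

theorem compat6 : ∀ (t : F4) (i : Idx),
    yM 6 t * rho i = (∑ j : Idx, Cfsg.Lie.chevG2.xMat F4 (6 : Fin 12) t j i • rho j) * yM 6 t := by
  decide +kernel

theorem compat7 : ∀ (t : F4) (i : Idx),
    yM 7 t * rho i = (∑ j : Idx, Cfsg.Lie.chevG2.xMat F4 (7 : Fin 12) t j i • rho j) * yM 7 t := by
  decide +kernel

theorem compat8 : ∀ (t : F4) (i : Idx),
    yM 8 t * rho i = (∑ j : Idx, Cfsg.Lie.chevG2.xMat F4 (8 : Fin 12) t j i • rho j) * yM 8 t := by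
  decide +kernel

theorem compat9 : ∀ (t : F4) (i : Idx),
    yM 9 t * rho i = (∑ j : Idx, Cfsg.Lie.chevG2.xMat F4 (9 : Fin 12) t j i • rho j) * yM 9 t := by
  decide +kernel

theorem compat10 : ∀ (t : F4) (i : Idx),
    yM 10 t * rho i = (∑ j : Idx, Cfsg.Lie.chevG2.xMat F4 (10 : Fin 12) t j i • rho j) * yM 10 t := by
  decide +kernel

theorem compat11 : ∀ (t : F4) (i : Idx),
    yM 11 t * rho i = (∑ j : Idx, Cfsg.Lie.chevG2.xMat F4 (11 : Fin 12) t j i • rho j) * yM 11 t := by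
  decide +kernel

end Cfsg.Agent.Lib.Helper56.G24A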