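import Mathlib
import Cfsg.Agent.S1023
import Cfsg.Agent.S1024
import Cfsg.Agent.Lib.Helper56.G24A

/-! The group `Ghat` of compatible pairs `(a, b)`, `a` in the adjoint Chevalley group `G_2(4)` of
the Prelude and `b` a symplectic `6 × 6` matrix with `b ρ(X) b⁻¹ = ρ(a X)`: both projections are
injective and the first one is onto `G_2(4)`. -/

set_option autoImplicit false

namespace Cfsg.Agent.Lib.Helper56.G24B

open Cfsg.Agent.Lib.Helper86.Sp4F4 Cfsg.Agent.Lib.Helper56.G24A Matrix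

/-- the linear extension of `rho`. -/
def rhoL (X : Idx → F4) : M6 := ∑ i : Idx, X i • rho i

theorem rhoL_single (i : Idx) : rhoL (Pi.single i 1) = rho i := by
  unfold rhoL
  rw [Finset.sum_eq_single i]
  · simp
  · intro j _ hj
    simp [Pi.single_eq_of_ne hj]
  · intro h
    exact absurd (Finset.mem_univ _) h

/-- row of a position detecting the coordinate `i`. -/
def posR : Idx → Fin 6 := Sum.elim ![0, 2] ![4, 3, 3, 2, 1, 2, 1, 0, 0, 1, 0, 0]

/-- column of a position detecting the coordinate `i`. -/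
def posC : Idx → Fin 6 := Sum.elim ![0, 2] ![0, 0, 1, 0, 0, 1, 2, 1, 2, 3, 3, 4]

theorem pos_spec : ∀ i j : Idx, rho j (posR i) (posC i) = if j = i then 1 else 0 := by
  decide +kernel

theorem rhoL_apply_pos (X : Idx → F4) (i : Idx) : rhoL X (posR i) (posC i) = X i := by
  unfold rhoL
  rw [Matrix.sum_apply]
  simp only [Matrix.smul_apply, smul_eq_mul, pos_spec]
  simp

theorem rhoL_inj (X Y : Idx → F4) (h : rhoL X = rhoL Y) : X = Y := by
  funext i
  rw [← rhoL_apply_pos X i, ← rhoL_apply_pos Y i, h]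

theorem compat (r : Fin 12) (t : F4) (i : Idx) :
    yM r t * rho i = (∑ j : Idx, Cfsg.Lie.chevG2.xMat F4 r t j i • rho j) * yM r t := by
  fin_cases r
  · exact compat0 t i
  · exact compat1 t i
  · exact compat2 t i
  · exact compat3 t i
  · exact compat4 t i
  · exact compat5 t i
  · exact compat6 t i
  · exact compat7 t i
  · exact compat8 t i
  · exact compat9 t i
  · exact compat10 t i
  · exact compat11 t i

theorem compat_all (r : Fin 12) (t : F4) (X : Idx → F4) :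
    yM r t * rhoL X = rhoL ((Cfsg.Lie.chevG2.xMat F4 r t) *ᵥ X) * yM r t := by
  unfold rhoL
  rw [Matrix.mul_sum, Matrix.sum_mul]
  have h1 : ∀ i : Idx, yM r t * (X i • rho i) =
      ∑ j : Idx, (X i * Cfsg.Lie.chevG2.xMat F4 r t j i) • (rho j * yM r t) := by
    intro i
    rw [Matrix.mul_smul, compat r t i, Matrix.sum_mul, Finset.smul_sum]
    refine Finset.sum_congr rfl (fun j _ => ?_)
    rw [Matrix.smul_mul, smul_smul]
  rw [Finset.sum_congr rfl (fun i _ => h1 i), Finset.sum_comm]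
  refine Finset.sum_congr rfl (fun j _ => ?_)
  rw [Matrix.smul_mul, ← Finset.sum_smul]
  congr 1
  simp only [Matrix.mulVec, dotProduct]
  exact Finset.sum_congr rfl (fun i _ => mul_comm _ _)

/-- the group of compatible pairs. -/
def Ghat : Subgroup (GL Idx F4 × GL (Fin 6) F4) where
  carrier := {p | p.1 ∈ Cfsg.Lie.chevG2.group F4 ∧
    (∀ X : Idx → F4, (p.2 : M6) * rhoL X = rhoL ((p.1 : M14) *ᵥ X) * (p.2 : M6)) ∧
    (p.2 : M6)ᵀ * Bm * (p.2 : M6) = Bm}
  mul_mem' := by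
    rintro p q ⟨hp1, hp2, hp3⟩ ⟨hq1, hq2, hq3⟩
    refine ⟨Subgroup.mul_mem _ hp1 hq1, ?_, ?_⟩
    · intro X
      show ((p.2 : M6) * (q.2 : M6)) * rhoL X =
        rhoL (((p.1 : M14) * (q.1 : M14)) *ᵥ X) * ((p.2 : M6) * (q.2 : M6))
      rw [Matrix.mul_assoc, hq2 X, ← Matrix.mul_assoc, hp2, Matrix.mulVec_mulVec, Matrix.mul_assoc]
    · show ((p.2 : M6) * (q.2 : M6))ᵀ * Bm * ((p.2 : M6) * (q.2 : M6)) = Bm
      rw [Matrix.transpose_mul]
      calc (q.2 : M6)ᵀ * (p.2 : M6)ᵀ * Bm * ((p.2 : M6) * (q.2 : M6))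
          = (q.2 : M6)ᵀ * ((p.2 : M6)ᵀ * Bm * (p.2 : M6)) * (q.2 : M6) := by
            simp only [Matrix.mul_assoc]
        _ = Bm := by rw [hp3, hq3]
  one_mem' := by
    refine ⟨Subgroup.one_mem _, ?_, ?_⟩
    · intro X
      show (1 : M6) * rhoL X = rhoL ((1 : M14) *ᵥ X) * (1 : M6)
      rw [Matrix.one_mul, Matrix.mul_one, Matrix.one_mulVec]
    · show (1 : M6)ᵀ * Bm * (1 : M6) = Bm
      rw [Matrix.transpose_one, Matrix.one_mul, Matrix.mul_one]
  inv_mem' := by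
    rintro p ⟨hp1, hp2, hp3⟩
    refine ⟨Subgroup.inv_mem _ hp1, ?_, ?_⟩
    · intro X
      have h := hp2 ((↑(p.1⁻¹) : M14) *ᵥ X)
      rw [Matrix.mulVec_mulVec, Units.mul_inv, Matrix.one_mulVec] at h
      show (↑(p.2⁻¹) : M6) * rhoL X = rhoL ((↑(p.1⁻¹) : M14) *ᵥ X) * (↑(p.2⁻¹) : M6)
      calc (↑(p.2⁻¹) : M6) * rhoL X
          = (↑(p.2⁻¹) : M6) * (rhoL X * (p.2 : M6)) * (↑(p.2⁻¹) : M6) := by
            rw [Matrix.mul_assoc, Matrix.mul_assoc, Units.mul_inv, Matrix.mul_one]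
        _ = (↑(p.2⁻¹) : M6) * ((p.2 : M6) * rhoL ((↑(p.1⁻¹) : M14) *ᵥ X)) * (↑(p.2⁻¹) : M6) := by
            rw [h]
        _ = rhoL ((↑(p.1⁻¹) : M14) *ᵥ X) * (↑(p.2⁻¹) : M6) := by
            rw [← Matrix.mul_assoc, Units.inv_mul, Matrix.one_mul]
    · show (↑(p.2⁻¹) : M6)ᵀ * Bm * (↑(p.2⁻¹) : M6) = Bm
      calc (↑(p.2⁻¹) : M6)ᵀ * Bm * (↑(p.2⁻¹) : M6)
          = (↑(p.2⁻¹) : M6)ᵀ * ((p.2 : M6)ᵀ * Bm * (p.2 : M6)) * (↑(p.2⁻¹) : M6) := by rw [hp3]
        _ = ((p.2 : M6) * (↑(p.2⁻¹) : M6))ᵀ * Bm * ((p.2 : M6) * (↑(p.2⁻¹) : M6)) := by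
            rw [Matrix.transpose_mul]
            simp only [Matrix.mul_assoc]
        _ = Bm := by
            rw [Units.mul_inv, Matrix.transpose_one, Matrix.one_mul, Matrix.mul_one]

/-- the group `Ghat` as a type. -/
abbrev P : Type := ↥Ghat

/-! ### the commutant of `rho` -/

theorem unit_comm (z : M6) (j k : Fin 6)
    (h : z * Matrix.single j k (1 : F4) = Matrix.single j k (1 : F4) * z) (m : Fin 6) :
    z m j = if m = j then z k k else 0 := by
  have h1 : (z * Matrix.single j k (1 : F4)) m k = (Matrix.single j k (1 : F4) * z) m k := by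
    rw [h]
  rw [Matrix.mul_single_apply_same, mul_one] at h1
  rw [h1]
  split_ifs with hm
  · subst hm
    rw [Matrix.single_mul_apply_same, one_mul]
  · exact Matrix.single_mul_apply_of_ne (1 : F4) j k m k hm z

theorem units_tab :
    rho (Sum.inl (1 : Fin 2)) * rho (Sum.inr (4 : Fin 12)) = Matrix.single 1 0 (1 : F4) ∧
    rho (Sum.inl (1 : Fin 2)) * rho (Sum.inr (3 : Fin 12)) = Matrix.single 2 0 (1 : F4) ∧
    rho (Sum.inl (1 : Fin 2)) * rho (Sum.inr (1 : Fin 12)) = Matrix.single 3 0 (1 : F4) ∧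
    rho (Sum.inl (1 : Fin 2)) * rho (Sum.inr (0 : Fin 12)) = Matrix.single 4 0 (1 : F4) ∧
    rho (Sum.inr (0 : Fin 12)) * rho (Sum.inr (4 : Fin 12)) = Matrix.single 5 0 (1 : F4) ∧
    rho (Sum.inr (7 : Fin 12)) * rho (Sum.inl (1 : Fin 2)) = Matrix.single 0 1 (1 : F4) := by
  decide +kernel

theorem comm_scalar (z : M6) (hz : ∀ i : Idx, z * rho i = rho i * z) : z = z 0 0 • (1 : M6) := by
  have hmul : ∀ i j : Idx, z * (rho i * rho j) = (rho i * rho j) * z := by
    intro i j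
    rw [← Matrix.mul_assoc, hz i, Matrix.mul_assoc, hz j, Matrix.mul_assoc]
  obtain ⟨u1, u2, u3, u4, u5, u0⟩ := units_tab
  have c1 := unit_comm z 1 0 (by rw [← u1]; exact hmul _ _)
  have c2 := unit_comm z 2 0 (by rw [← u2]; exact hmul _ _)
  have c3 := unit_comm z 3 0 (by rw [← u3]; exact hmul _ _)
  have c4 := unit_comm z 4 0 (by rw [← u4]; exact hmul _ _)
  have c5 := unit_comm z 5 0 (by rw [← u5]; exact hmul _ _)
  have c0 := unit_comm z 0 1 (by rw [← u0]; exact hmul _ _)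
  have h11 : z 1 1 = z 0 0 := by have := c1 1; simpa using this
  have hall : ∀ j m : Fin 6, z m j = if m = j then z 0 0 else 0 := by
    intro j
    rcases j with ⟨j, hj⟩
    interval_cases j
    · intro m
      have := c0 m
      rw [h11] at this
      exact this
    · exact c1
    · exact c2
    · exact c3
    · exact c4
    · exact c5
  ext m j
  rw [Matrix.smul_apply, Matrix.one_apply, smul_eq_mul, hall j m]
  split_ifs <;> simp

theorem sq_one : ∀ c : F4, c * c = 1 → c = 1 := by decide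

theorem Bm_05 : Bm 0 5 = 1 := by decide

/-! ### the two projections -/

theorem fst_eq_one_imp (p : P) (h : p.1.1 = 1) : p = 1 := by
  obtain ⟨_, h2, h3⟩ := p.2
  have hz : ∀ i : Idx, (p.1.2 : M6) * rho i = rho i * (p.1.2 : M6) := by
    intro i
    have := h2 (Pi.single i 1)
    rw [h, Units.val_one, Matrix.one_mulVec, rhoL_single] at this
    exact this
  have hs := comm_scalar _ hz
  set c := (p.1.2 : M6) 0 0 with hc
  have hc1 : c = 1 := by
    apply sq_one
    rw [hs] at h3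
    have h4 := congrFun (congrFun h3 0) 5
    rw [Matrix.transpose_smul, Matrix.transpose_one, Matrix.smul_mul, Matrix.one_mul,
      Matrix.mul_smul, Matrix.mul_one, smul_smul, Matrix.smul_apply, Bm_05, smul_eq_mul,
      mul_one] at h4
    exact h4
  have h5 : p.1.2 = 1 := by
    apply Units.ext
    rw [hs, hc1, one_smul, Units.val_one]
  apply Subtype.ext
  exact Prod.ext h h5

theorem snd_eq_one_imp (p : P) (h : p.1.2 = 1) : p = 1 := by
  obtain ⟨_, h2, _⟩ := p.2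
  have h5 : p.1.1 = 1 := by
    apply Units.ext
    rw [Units.val_one]
    have hX : ∀ X : Idx → F4, (p.1.1 : M14) *ᵥ X = X := by
      intro X
      have := h2 X
      rw [h, Units.val_one, Matrix.one_mul, Matrix.mul_one] at this
      exact (rhoL_inj _ _ this).symm
    ext i j
    have := congrFun (hX (Pi.single j 1)) i
    rw [Matrix.mulVec_single_one] at this
    rw [Matrix.one_apply]
    rw [Pi.single_apply] at this
    simpa [eq_comm] using this
  apply Subtype.ext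
  exact Prod.ext h5 h

/-- the projection to the `6 × 6` matrices. -/
def pi2 : P →* M6 where
  toFun p := (p.1.2 : M6)
  map_one' := rfl
  map_mul' _ _ := rfl

theorem pi2_inj : Function.Injective pi2 := by
  rw [injective_iff_map_eq_one]
  intro p hp
  apply snd_eq_one_imp
  apply Units.ext
  exact hp

theorem orderOf_pi2 (p : P) : orderOf (pi2 p) = orderOf p := orderOf_injective pi2 pi2_inj p

/-- the projection to the Chevalley group. -/
def pi1 : P →* ↥(Cfsg.Lie.chevG2.group F4) where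
  toFun p := ⟨p.1.1, p.2.1⟩
  map_one' := rfl
  map_mul' _ _ := rfl

theorem pi1_inj : Function.Injective pi1 := by
  rw [injective_iff_map_eq_one]
  intro p hp
  apply fst_eq_one_imp
  exact congrArg Subtype.val hp

/-! ### generators -/

theorem hD : Cfsg.Lie.chevG2 ∈ [Cfsg.Lie.chevG2, Cfsg.Lie.chevB2, Cfsg.Lie.chevD4,
    Cfsg.Lie.chevF4, Cfsg.Lie.chevE6, Cfsg.Lie.chevE7, Cfsg.Lie.chevE8] := by simp

theorem add_self : ∀ t : F4, t + t = 0 := by decide

theorem xMat_sq (r : Fin 12) (t : F4) :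
    Cfsg.Lie.chevG2.xMat F4 r t * Cfsg.Lie.chevG2.xMat F4 r t = 1 := by
  have hr : r.val < Cfsg.Lie.chevG2.nroots := r.isLt
  have hx : Cfsg.Lie.chevG2.x F4 r.val t = Cfsg.Lie.chevG2.xMat F4 r t := by
    unfold Cfsg.Lie.ChevalleyDatum.x
    rw [dif_pos hr]
    rfl
  rw [← hx, Cfsg.Agent.S1023.result _ hD r.val hr, add_self]
  exact (Cfsg.Agent.S1024.result _ hD r.val hr 0).mpr rfl

/-- the root element `x_r(t)` as a unit. -/
def xU (r : Fin 12) (t : F4) : GL Idx F4 :=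
  ⟨Cfsg.Lie.chevG2.xMat F4 r t, Cfsg.Lie.chevG2.xMat F4 r t, xMat_sq r t, xMat_sq r t⟩

/-- the root element `y_r(t)` as a unit. -/
def yU (r : Fin 12) (t : F4) : GL (Fin 6) F4 := ⟨yM r t, yM r t, yM_sq r t, yM_sq r t⟩

theorem gen_mem (r : Fin 12) (t : F4) : (xU r t, yU r t) ∈ Ghat := by
  refine ⟨Subgroup.subset_closure ⟨r, t, rfl⟩, ?_, yM_symp r t⟩
  intro X
  exact compat_all r t X

/-- the generators of `Ghat`. -/
def gen (r : Fin 12) (t : F4) : P := ⟨(xU r t, yU r t), gen_mem r t⟩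

theorem pi2_gen (r : Fin 12) (t : F4) : pi2 (gen r t) = yM r t := rfl

theorem exists_lift (a : GL Idx F4) (ha : a ∈ Cfsg.Lie.chevG2.group F4) :
    ∃ b : GL (Fin 6) F4, (a, b) ∈ Ghat := by
  unfold Cfsg.Lie.ChevalleyDatum.group at ha
  refine Subgroup.closure_induction (p := fun g _ => ∃ b : GL (Fin 6) F4, (g, b) ∈ Ghat)
    ?_ ?_ ?_ ?_ ha
  · rintro g ⟨r, t, hrt⟩
    have hg : g = xU r t := Units.ext hrt
    exact ⟨yU r t, hg ▸ gen_mem r t⟩
  · exact ⟨1, Ghat.one_mem⟩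
  · rintro g h _ _ ⟨b, hb⟩ ⟨c, hc⟩
    exact ⟨b * c, Ghat.mul_mem hb hc⟩
  · rintro g _ ⟨b, hb⟩
    exact ⟨b⁻¹, Ghat.inv_mem hb⟩

theorem pi1_surj : Function.Surjective pi1 := by
  rintro ⟨a, ha⟩
  obtain ⟨b, hb⟩ := exists_lift a ha
  exact ⟨⟨(a, b), hb⟩, rfl⟩

/-- `Ghat` is isomorphic to the Chevalley group `G_2(4)` of the Prelude. -/
noncomputable def equivG : P ≃* ↥(Cfsg.Lie.chevG2.group F4) :=
  MulEquiv.ofBijective pi1 ⟨pi1_inj, pi1_surj⟩

end Cfsg.Agent.Lib.Helper56.G24B
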