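import Mathlib
import Cfsg.Agent.Lib.Helper56.G24A

/-! Explicit elements of the 6-dimensional `G_2(4)`: products of root elements of orders
6, 7, 10, 13, 15, 21 and the certificates used for the centralisers of the elements of order
7 and 13. -/

set_option autoImplicit false

namespace Cfsg.Agent.Lib.Helper56.G24T

open Cfsg.Agent.Lib.Helper86.Sp4F4 Cfsg.Agent.Lib.Helper86.Sp4F4.F4 Cfsg.Agent.Lib.Helper56.G24A

def Y6 : M6 := !![o, z, z, z, o, z; z, o, z, z, z, o; z, z, o, z, z, z; z, o, z, o, z, o; o, z, o, z, z, z; o, o, z, z, o, z]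

theorem Y6_word : yM 0 o * yM 2 o * yM 11 o = Y6 := by decide +kernel

def Y10 : M6 := !![o, z, z, z, z, v; z, o, z, w, z, z; z, z, o, z, w, z; z, o, z, v, z, z; o, z, o, z, v, v; o, o, z, w, z, w]

theorem Y10_word : yM 0 o * yM 2 o * yM 9 w = Y10 := by decide +kernel

def Y15 : M6 := !![o, z, z, z, z, v; o, o, z, w, z, v; z, z, o, z, w, z; z, z, o, o, w, z; o, z, z, z, o, v; o, o, z, w, o, w]

theorem Y15_word : yM 0 o * yM 4 o * yM 9 w = Y15 := by decide +kernel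

def Y21 : M6 := !![o, z, o, z, w, v; z, o, z, w, o, z; z, z, o, z, w, z; z, z, z, o, z, o; o, z, o, z, v, v; z, o, z, w, o, o]

theorem Y21_word : yM 0 o * yM 8 o * yM 9 w = Y21 := by decide +kernel

def Y7 : M6 := !![o, z, z, z, z, o; o, o, z, o, z, o; z, z, o, z, o, z; z, z, o, o, o, z; o, z, z, z, o, o; o, o, z, o, o, z]

theorem Y7_word : yM 0 o * yM 4 o * yM 9 o = Y7 := by decide +kernel

def Y13 : M6 := !![o, z, z, z, z, v; w, o, z, w, z, o; z, z, o, z, w, z; w, o, v, v, o, o; o, z, o, z, v, v; v, o, z, w, w, v]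

theorem Y13_word : yM 0 o * yM 2 o * yM 4 w * yM 9 w = Y13 := by decide +kernel

theorem Y6_ord : Y6 ^ 6 = 1 ∧ Y6 ^ 3 ≠ 1 ∧ Y6 ^ 2 ≠ 1 := by decide +kernel

theorem Y10_ord : Y10 ^ 10 = 1 ∧ Y10 ^ 5 ≠ 1 ∧ Y10 ^ 2 ≠ 1 := by decide +kernel

theorem Y15_ord : Y15 ^ 15 = 1 ∧ Y15 ^ 5 ≠ 1 ∧ Y15 ^ 3 ≠ 1 := by decide +kernel

theorem Y21_ord : Y21 ^ 21 = 1 ∧ Y21 ^ 7 ≠ 1 ∧ Y21 ^ 3 ≠ 1 := by decide +kernel

theorem Y7_ord : Y7 ^ 7 = 1 ∧ Y7 ≠ 1 := by decide +kernel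

theorem Y13_ord : Y13 ^ 13 = 1 ∧ Y13 ≠ 1 := by decide +kernel

def K7 : M6 := !![o, o, z, o, z, o; z, o, o, o, z, z; z, z, o, z, z, z; z, z, o, o, o, o; z, o, o, z, z, o; z, o, o, o, o, o]

def K7i : M6 := !![o, o, z, o, o, o; z, z, z, o, z, o; z, z, o, z, z, z; z, o, o, o, z, o; z, o, o, o, o, z; z, z, o, o, o, o]

def J7 : M6 := !![o, z, z, z, o, z; z, o, o, z, z, o; z, z, o, o, z, z; z, o, z, z, o, z; z, z, o, z, z, z; o, z, z, z, z, z]

theorem K7_col : ∀ i r : Fin 6, K7 r i = (Y7 ^ (i : ℕ)) r 0 := by decide +kernel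

theorem K7_inv : K7 * K7i = 1 := by decide +kernel

theorem J7_inv : J7 * (Y7 + 1) = 1 := by decide +kernel

def K13 : M6 := !![o, o, v, w, v, w; z, w, z, w, v, v; z, z, w, w, w, z; z, w, v, z, w, o; z, o, z, z, o, v; z, v, w, w, w, o]

def K13i : M6 := !![o, o, o, o, w, o; z, w, w, o, z, z; z, z, z, w, v, z; z, o, o, o, w, v; z, o, w, v, o, v; z, o, z, v, z, o]

def J13 : M6 := !![o, z, v, v, w, v; z, o, w, v, w, w; z, z, w, v, v, v; z, v, v, v, w, v; z, z, v, z, z, z; w, z, z, z, z, z]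

theorem K13_col : ∀ i r : Fin 6, K13 r i = (Y13 ^ (i : ℕ)) r 0 := by decide +kernel

theorem K13_inv : K13 * K13i = 1 := by decide +kernel

theorem J13_inv : J13 * (Y13 + 1) = 1 := by decide +kernel

def Y13i : M6 := !![v, v, o, z, o, v; w, v, o, w, z, z; w, z, v, z, w, z; z, o, v, o, z, z; o, z, o, z, o, z; v, o, w, z, w, o]

theorem Y13i_pow : Y13 ^ 12 = Y13i := by decide +kernel

theorem Y13_transpose : Y13.transpose = Bm * Y13i * Bm := by decide +kernel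

theorem Bm_sq : Bm * Bm = 1 := by decide +kernel

end Cfsg.Agent.Lib.Helper56.G24T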