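import Mathlib
import Cfsg.Agent.Lib.Helper56.G24B
import Cfsg.Agent.Lib.Helper56.G24T

/-! Centralisers of the elements of order 7 and 13 of `Ghat` (the 6-dimensional `G_2(4)`): a
matrix commuting with a cyclic matrix `y` is a polynomial in `y`, and polynomials over the field
with four elements satisfy `f(y)^4 = f(y^4)`. -/

set_option autoImplicit false

namespace Cfsg.Agent.Lib.Helper56.G24C

open Cfsg.Agent.Lib.Helper86.Sp4F4 Cfsg.Agent.Lib.Helper56.G24A Cfsg.Agent.Lib.Helper56.G24B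
  Cfsg.Agent.Lib.Helper56.G24T Matrix Polynomial

instance charF4 : CharP F4 2 := CharTwo.of_one_ne_zero_of_two_eq_zero (by decide) (by decide)

theorem pow4_F4 : ∀ a : F4, a ^ 4 = a := by decide

theorem frob_id : iterateFrobenius F4 2 2 = RingHom.id F4 := by
  ext a
  rw [iterateFrobenius_def]
  exact pow4_F4 a

theorem pow_four (f : F4[X]) : f ^ 4 = expand F4 4 f := by
  have h := map_iterateFrobenius_expand (R := F4) (p := 2) f 2
  rw [frob_id, Polynomial.map_id] at h
  exact h.symm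

theorem aeval_pow4 (y : M6) (f : F4[X]) : (aeval y f) ^ 4 = aeval (y ^ 4) f := by
  rw [← map_pow, pow_four, expand_aeval]

theorem aeval_pow4k (y : M6) (f : F4[X]) (k : ℕ) :
    (aeval y f) ^ (4 ^ k) = aeval (y ^ (4 ^ k)) f := by
  induction k with
  | zero => simp
  | succ k ih => rw [pow_succ, pow_mul, ih, aeval_pow4, ← pow_mul]

/-- a matrix commuting with `y` is a polynomial in `y` when the vectors `y^i e_0` form a
basis. -/
theorem comm_poly (y K Ki : M6) (hcol : ∀ i r : Fin 6, K r i = (y ^ (i : ℕ)) r 0)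
    (hK : K * Ki = 1) (b : M6) (hb : b * y = y * b) : ∃ f : F4[X], b = aeval y f := by
  set c : Fin 6 → F4 := Ki *ᵥ (fun r => b r 0) with hc
  set Pm : M6 := ∑ i : Fin 6, c i • y ^ (i : ℕ) with hPm
  have hPy : Pm * y = y * Pm := by
    rw [hPm, Finset.sum_mul, Finset.mul_sum]
    refine Finset.sum_congr rfl (fun i _ => ?_)
    rw [Matrix.smul_mul, Matrix.mul_smul, ← pow_succ, ← pow_succ']
  have hcol0 : ∀ r, Pm r 0 = b r 0 := by
    intro r
    have h1 : Pm r 0 = (K *ᵥ c) r := by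
      rw [hPm, Matrix.sum_apply]
      simp only [Matrix.smul_apply, smul_eq_mul, Matrix.mulVec, dotProduct, hcol]
      exact Finset.sum_congr rfl (fun i _ => mul_comm _ _)
    rw [h1, hc, Matrix.mulVec_mulVec, hK, Matrix.one_mulVec]
  have hD : b - Pm = 0 := by
    set Dm := b - Pm with hDm
    have hDy : Dm * y = y * Dm := by rw [hDm, sub_mul, mul_sub, hb, hPy]
    have hDpow : ∀ n : ℕ, Dm * y ^ n = y ^ n * Dm := by
      intro n
      induction n with
      | zero => simp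
      | succ n ih => rw [pow_succ, ← mul_assoc, ih, mul_assoc, hDy, ← mul_assoc]
    have hD0 : ∀ r, Dm r 0 = 0 := by
      intro r
      rw [hDm, Matrix.sub_apply, hcol0, sub_self]
    have hDK : Dm * K = 0 := by
      ext r i
      have h2 : (Dm * K) r i = (Dm * y ^ (i : ℕ)) r 0 := by
        simp only [Matrix.mul_apply, hcol]
      rw [h2, hDpow, Matrix.mul_apply]
      simp [hD0]
    calc Dm = Dm * (K * Ki) := by rw [hK, mul_one]
      _ = 0 := by rw [← mul_assoc, hDK, zero_mul]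
  refine ⟨∑ i : Fin 6, Polynomial.C (c i) * Polynomial.X ^ (i : ℕ), ?_⟩
  rw [sub_eq_zero.mp hD, hPm]
  simp only [map_sum, map_mul, aeval_C, map_pow, aeval_X, Algebra.smul_def]

theorem aeval_transpose (y : M6) (f : F4[X]) : (aeval y f)ᵀ = aeval yᵀ f := by
  induction f using Polynomial.induction_on' with
  | add p q hp hq => rw [map_add, map_add, Matrix.transpose_add, hp, hq]
  | monomial n a =>
    rw [aeval_monomial, aeval_monomial, ← Algebra.smul_def, ← Algebra.smul_def,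
      Matrix.transpose_smul, Matrix.transpose_pow]

theorem conj_pow' (B y : M6) (hB : B * B = 1) (n : ℕ) : (B * y * B) ^ n = B * y ^ n * B := by
  induction n with
  | zero => rw [pow_zero, pow_zero, mul_one, hB]
  | succ n ih =>
    rw [pow_succ, ih, pow_succ]
    calc B * y ^ n * B * (B * y * B) = B * y ^ n * (B * B) * y * B := by
          simp only [mul_assoc]
      _ = B * (y ^ n * y) * B := by rw [hB, mul_one]; simp only [mul_assoc]

theorem aeval_conj (B y : M6) (hB : B * B = 1) (f : F4[X]) :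
    aeval (B * y * B) f = B * aeval y f * B := by
  induction f using Polynomial.induction_on' with
  | add p q hp hq => rw [map_add, map_add, hp, hq, mul_add, add_mul]
  | monomial n a =>
    rw [aeval_monomial, aeval_monomial, conj_pow' B y hB, ← Algebra.smul_def, ← Algebra.smul_def,
      Matrix.mul_smul, Matrix.smul_mul]

/-! ### elements of `Ghat` -/

/-- an element of order 7. -/
def x7 : P := gen 0 F4.o * gen 4 F4.o * gen 9 F4.o

/-- an element of order 13. -/
def x13 : P := gen 0 F4.o * gen 2 F4.o * gen 4 F4.w * gen 9 F4.w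

theorem pi2_x7 : pi2 x7 = Y7 := by
  unfold x7
  rw [map_mul, map_mul, pi2_gen, pi2_gen, pi2_gen]
  exact Y7_word

theorem pi2_x13 : pi2 x13 = Y13 := by
  unfold x13
  rw [map_mul, map_mul, map_mul, pi2_gen, pi2_gen, pi2_gen, pi2_gen]
  exact Y13_word

theorem order_x7 : orderOf x7 = 7 := by
  rw [← orderOf_pi2, pi2_x7]
  haveI : Fact (Nat.Prime 7) := ⟨by norm_num⟩
  exact orderOf_eq_prime Y7_ord.1 Y7_ord.2

theorem order_x13 : orderOf x13 = 13 := by
  rw [← orderOf_pi2, pi2_x13]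
  haveI : Fact (Nat.Prime 13) := ⟨by norm_num⟩
  exact orderOf_eq_prime Y13_ord.1 Y13_ord.2

theorem pi2_unit (c : P) (M : M6) (h : pi2 c * M = pi2 c) : M = 1 := by
  have h1 : (↑(c.1.2⁻¹) : M6) * (pi2 c * M) = (↑(c.1.2⁻¹) : M6) * pi2 c := by rw [h]
  have h2 : (↑(c.1.2⁻¹) : M6) * pi2 c = 1 := Units.inv_mul _
  rw [← mul_assoc, h2, one_mul] at h1
  exact h1

/-- everything commuting with `x7` is killed by 63. -/
theorem cent7 (c : P) (hc : Commute c x7) : c ^ 63 = 1 := by
  have hb : pi2 c * Y7 = Y7 * pi2 c := by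
    rw [← pi2_x7, ← map_mul, ← map_mul, hc.eq]
  obtain ⟨f, hf⟩ := comm_poly Y7 K7 K7i K7_col K7_inv (pi2 c) hb
  have h64 : Y7 ^ 64 = Y7 := by
    have : (64 : ℕ) = 7 * 9 + 1 := by norm_num
    rw [this, pow_succ, pow_mul, Y7_ord.1, one_pow, one_mul]
  have h1 : pi2 c ^ 64 = pi2 c := by
    have := aeval_pow4k Y7 f 3
    norm_num at this
    rw [hf, this, h64]
  have h2 : pi2 c ^ 63 = 1 := by
    apply pi2_unit c
    rw [← pow_succ']
    exact h1
  apply pi2_inj
  rw [map_pow, h2, map_one]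

theorem pi2_symp (c : P) : (pi2 c)ᵀ * Bm * pi2 c = Bm := c.2.2.2

/-- everything commuting with `x13` is killed by 65. -/
theorem cent13a (c : P) (hc : Commute c x13) : c ^ 65 = 1 := by
  have hb : pi2 c * Y13 = Y13 * pi2 c := by
    rw [← pi2_x13, ← map_mul, ← map_mul, hc.eq]
  obtain ⟨f, hf⟩ := comm_poly Y13 K13 K13i K13_col K13_inv (pi2 c) hb
  have h64 : Y13 ^ 64 = Y13i := by
    have : (64 : ℕ) = 13 * 4 + 12 := by norm_num
    rw [this, pow_add, pow_mul, Y13_ord.1, one_pow, one_mul, Y13i_pow]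
  have h1 : pi2 c ^ 64 = aeval Y13i f := by
    have := aeval_pow4k Y13 f 3
    norm_num at this
    rw [hf, this, h64]
  have h2 : (pi2 c)ᵀ = Bm * pi2 c ^ 64 * Bm := by
    rw [h1, ← aeval_conj Bm Y13i Bm_sq, ← Y13_transpose, ← aeval_transpose, ← hf]
  have h3 := pi2_symp c
  rw [h2] at h3
  have h4 : Bm * pi2 c ^ 65 = Bm := by
    calc Bm * pi2 c ^ 65 = Bm * pi2 c ^ 64 * (Bm * Bm) * pi2 c := by
          rw [Bm_sq, mul_one, pow_succ, mul_assoc]
      _ = Bm * pi2 c ^ 64 * Bm * Bm * pi2 c := by simp only [mul_assoc]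
      _ = Bm := h3
  have h5 : pi2 c ^ 65 = 1 := by
    calc pi2 c ^ 65 = Bm * Bm * pi2 c ^ 65 := by rw [Bm_sq, one_mul]
      _ = Bm * (Bm * pi2 c ^ 65) := by rw [mul_assoc]
      _ = 1 := by rw [h4, Bm_sq]
  apply pi2_inj
  rw [map_pow, h5, map_one]

/-- `x7` has no non-zero fixed vector. -/
theorem fpf7 (v : Fin 6 → F4) (hv : Y7 *ᵥ v = v) : v = 0 := by
  have h1 : (Y7 + 1) *ᵥ v = 0 := by
    rw [Matrix.add_mulVec, hv, Matrix.one_mulVec]
    funext i
    exact add_self (v i)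
  calc v = (J7 * (Y7 + 1)) *ᵥ v := by rw [J7_inv, Matrix.one_mulVec]
    _ = 0 := by rw [← Matrix.mulVec_mulVec, h1, Matrix.mulVec_zero]

/-- `x13` has no non-zero fixed vector. -/
theorem fpf13 (v : Fin 6 → F4) (hv : Y13 *ᵥ v = v) : v = 0 := by
  have h1 : (Y13 + 1) *ᵥ v = 0 := by
    rw [Matrix.add_mulVec, hv, Matrix.one_mulVec]
    funext i
    exact add_self (v i)
  calc v = (J13 * (Y13 + 1)) *ᵥ v := by rw [J13_inv, Matrix.one_mulVec]
    _ = 0 := by rw [← Matrix.mulVec_mulVec, h1, Matrix.mulVec_zero]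

/-! ### elements of orders 6, 10, 15, 21 -/

theorem order_of_three (g : P) (Y : M6) (h : pi2 g = Y) (n p q : ℕ) (hn : n = p * q)
    (hp : p.Prime) (hq : q.Prime) (h1 : Y ^ n = 1) (h2 : Y ^ p ≠ 1) (h3 : Y ^ q ≠ 1) :
    orderOf g = n := by
  rw [← orderOf_pi2, h]
  have hn0 : 0 < n := by rw [hn]; exact Nat.mul_pos hp.pos hq.pos
  apply orderOf_eq_of_pow_and_pow_div_prime hn0 h1
  intro r hr hrn
  rw [hn] at hrn
  rcases (Nat.Prime.dvd_mul hr).mp hrn with h | h
  · have : r = p := (Nat.prime_dvd_prime_iff_eq hr hp).mp h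
    rw [this, hn, Nat.mul_div_cancel_left _ hp.pos]
    exact h3
  · have : r = q := (Nat.prime_dvd_prime_iff_eq hr hq).mp h
    rw [this, hn, Nat.mul_div_cancel _ hq.pos]
    exact h2

theorem exists_order6 : ∃ g : P, orderOf g = 6 := by
  refine ⟨gen 0 F4.o * gen 2 F4.o * gen 11 F4.o, ?_⟩
  have h : pi2 (gen 0 F4.o * gen 2 F4.o * gen 11 F4.o) = Y6 := by
    rw [map_mul, map_mul, pi2_gen, pi2_gen, pi2_gen]
    exact Y6_word
  exact order_of_three _ Y6 h 6 3 2 (by norm_num) (by norm_num) (by norm_num)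
    Y6_ord.1 Y6_ord.2.1 Y6_ord.2.2

theorem exists_order10 : ∃ g : P, orderOf g = 10 := by
  refine ⟨gen 0 F4.o * gen 2 F4.o * gen 9 F4.w, ?_⟩
  have h : pi2 (gen 0 F4.o * gen 2 F4.o * gen 9 F4.w) = Y10 := by
    rw [map_mul, map_mul, pi2_gen, pi2_gen, pi2_gen]
    exact Y10_word
  exact order_of_three _ Y10 h 10 5 2 (by norm_num) (by norm_num) (by norm_num)
    Y10_ord.1 Y10_ord.2.1 Y10_ord.2.2

theorem exists_order15 : ∃ g : P, orderOf g = 15 := by
  refine ⟨gen 0 F4.o * gen 4 F4.o * gen 9 F4.w, ?_⟩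
  have h : pi2 (gen 0 F4.o * gen 4 F4.o * gen 9 F4.w) = Y15 := by
    rw [map_mul, map_mul, pi2_gen, pi2_gen, pi2_gen]
    exact Y15_word
  exact order_of_three _ Y15 h 15 5 3 (by norm_num) (by norm_num) (by norm_num)
    Y15_ord.1 Y15_ord.2.1 Y15_ord.2.2

theorem exists_order21 : ∃ g : P, orderOf g = 21 := by
  refine ⟨gen 0 F4.o * gen 8 F4.o * gen 9 F4.w, ?_⟩
  have h : pi2 (gen 0 F4.o * gen 8 F4.o * gen 9 F4.w) = Y21 := by
    rw [map_mul, map_mul, pi2_gen, pi2_gen, pi2_gen]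
    exact Y21_word
  exact order_of_three _ Y21 h 21 7 3 (by norm_num) (by norm_num) (by norm_num)
    Y21_ord.1 Y21_ord.2.1 Y21_ord.2.2

end Cfsg.Agent.Lib.Helper56.G24C
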