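import Mathlib

/-! Sylow subgroups of prime order: conjugacy of elements, centralisers, and a counting lemma for
a group of order `251596800 = |G_2(4)|`. -/

set_option autoImplicit false

namespace Cfsg.Agent.Lib.Helper56.G24S

open scoped Pointwise

variable {G : Type*} [Group G] [Finite G]

/-- elements of order `p` are conjugate to powers of each other when `p` divides the order of the
group exactly once. -/
theorem sylow_conj (p : ℕ) [hp : Fact p.Prime] (hcard : (Nat.card G).factorization p = 1)
    (x g : G) (hx : orderOf x = p) (hg : orderOf g = p) :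
    ∃ (c : G) (i : ℕ), x = c * g ^ i * c⁻¹ := by
  let P : Sylow p G := Sylow.ofCard (Subgroup.zpowers x)
    (by rw [Nat.card_zpowers, hx, hcard, pow_one])
  let Q : Sylow p G := Sylow.ofCard (Subgroup.zpowers g)
    (by rw [Nat.card_zpowers, hg, hcard, pow_one])
  obtain ⟨c, hc⟩ := MulAction.exists_smul_eq G Q P
  have hz : c * g * c⁻¹ ∈ Subgroup.zpowers x := by
    have h1 : (MulAut.conj c) • g ∈ (MulAut.conj c) • (Q : Subgroup G) :=
      Subgroup.smul_mem_pointwise_smul _ _ _ (Subgroup.mem_zpowers g)
    rw [← Sylow.coe_subgroup_smul, hc] at h1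
    exact h1
  have ho : orderOf (c * g * c⁻¹) = p := by
    rw [← hg]
    exact (MulAut.conj c).orderOf_eq g
  have heq : Subgroup.zpowers (c * g * c⁻¹) = Subgroup.zpowers x := by
    apply Subgroup.eq_of_le_of_card_ge ((Subgroup.zpowers_le).mpr hz)
    rw [Nat.card_zpowers, Nat.card_zpowers, ho, hx]
  have hxz : x ∈ Subgroup.zpowers (c * g * c⁻¹) := heq ▸ Subgroup.mem_zpowers x
  rw [← mem_powers_iff_mem_zpowers] at hxz
  obtain ⟨i, hi⟩ := hxz
  refine ⟨c, i, ?_⟩
  rw [← conj_pow]
  exact hi.symm

/-- an element whose order is divisible by `p` has a conjugate commuting with `x`. -/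
theorem conj_commute (p : ℕ) [hp : Fact p.Prime] (hcard : (Nat.card G).factorization p = 1)
    (x g : G) (hx : orderOf x = p) (hg : p ∣ orderOf g) : ∃ c : G, Commute (c * g * c⁻¹) x := by
  obtain ⟨r, hr⟩ := hg
  have hpos : 0 < orderOf g := orderOf_pos g
  have hp0 : 0 < p := hp.out.pos
  have hr0 : 0 < r := by
    rcases Nat.eq_zero_or_pos r with h | h
    · rw [h, mul_zero] at hr; omega
    · exact h
  have hgr : orderOf (g ^ r) = p := by
    rw [orderOf_pow_of_dvd (by omega) (by rw [hr]; exact Dvd.intro_left p rfl), hr,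
      Nat.mul_div_cancel _ hr0]
  obtain ⟨c, i, hci⟩ := sylow_conj p hcard x (g ^ r) hx hgr
  refine ⟨c, ?_⟩
  have h2 : x = (c * g * c⁻¹) ^ (r * i) := by rw [hci, conj_pow, pow_mul]
  rw [h2]
  exact (Commute.refl _).pow_right _

/-- if everything commuting with `x` is killed by `m`, so is everything of order divisible by
`p`. -/
theorem pow_eq_one_of_cent (p : ℕ) [hp : Fact p.Prime] (hcard : (Nat.card G).factorization p = 1)
    (x : G) (hx : orderOf x = p) (m : ℕ) (hC : ∀ c : G, Commute c x → c ^ m = 1)
    (g : G) (hg : p ∣ orderOf g) : g ^ m = 1 := by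
  obtain ⟨c, hc⟩ := conj_commute p hcard x g hx hg
  have h1 := hC _ hc
  rw [conj_pow] at h1
  have h2 : g ^ m = c⁻¹ * (c * g ^ m * c⁻¹) * c := by group
  rw [h2, h1]
  group

theorem fac_of_mul (p m : ℕ) [hp : Fact p.Prime] (hG : Nat.card G = p * m) (hpm : ¬ p ∣ m) :
    (Nat.card G).factorization p = 1 := by
  have hm0 : m ≠ 0 := by
    rintro rfl
    exact hpm (dvd_zero p)
  rw [hG, Nat.factorization_mul hp.out.ne_zero hm0, Finsupp.add_apply,
    Nat.Prime.factorization_self hp.out, Nat.factorization_eq_zero_of_not_dvd hpm]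

/-- Sylow counting in a group of order `|G_2(4)|`: if every element commuting with an element
`x` of order 13 is killed by 65, then the centraliser of `x` is generated by `x`. -/
theorem cent13 (hG : Nat.card G = 251596800) (x : G) (hx : orderOf x = 13)
    (hC : ∀ c : G, Commute c x → c ^ 65 = 1) : ∀ c : G, Commute c x → c ^ 13 = 1 := by
  haveI : Fact (Nat.Prime 13) := ⟨by norm_num⟩
  have hfac : (Nat.card G).factorization 13 = 1 :=
    fac_of_mul 13 19353600 (by rw [hG]) (by norm_num)
  let P : Sylow 13 G := Sylow.ofCard (Subgroup.zpowers x)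
    (by rw [Nat.card_zpowers, hx, hfac, pow_one])
  have hPcoe : (P : Subgroup G) = Subgroup.zpowers x := rfl
  have hn1 : Nat.card (Sylow 13 G) ≡ 1 [MOD 13] := card_sylow_modEq_one 13 G
  have hn2 : Nat.card (Sylow 13 G) = (Subgroup.normalizer ((P : Subgroup G) : Set G)).index :=
    Sylow.card_eq_index_normalizer P
  set N := Subgroup.normalizer ((P : Subgroup G) : Set G) with hN
  set C := Subgroup.centralizer ((P : Subgroup G) : Set G) with hCdef
  have hCN : C ≤ N := Subgroup.centralizer_le_normalizer _
  -- the quotient embeds in the automorphism group of `P`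
  have key := Subgroup.card_dvd_of_injective _
    (QuotientGroup.kerLift_injective (P : Subgroup G).normalizerMonoidHom)
  rw [Subgroup.normalizerMonoidHom_ker, ← Subgroup.index] at key
  have hcyc : IsCyclic (P : Subgroup G) := by
    rw [hPcoe]; infer_instance
  have hPcard : Nat.card (P : Subgroup G) = 13 := by rw [hPcoe, Nat.card_zpowers, hx]
  have hAut : Nat.card (MulAut (P : Subgroup G)) = 12 := by
    rw [hcyc.card_mulAut, hPcard]
    decide
  rw [hAut] at key
  -- orders
  have h1 : (C.subgroupOf N).index * Nat.card (C.subgroupOf N) = Nat.card N :=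
    Subgroup.index_mul_card _
  have h2 : Nat.card (C.subgroupOf N) = Nat.card C :=
    Nat.card_congr (Subgroup.subgroupOfEquivOfLe hCN).toEquiv
  have h3 : N.index * Nat.card N = Nat.card G := Subgroup.index_mul_card N
  -- elements of `C`
  have hCmem : ∀ c : G, c ∈ C ↔ Commute c x := by
    intro c
    rw [hCdef, Subgroup.mem_centralizer_iff]
    constructor
    · intro h
      exact (h x (by rw [hPcoe]; exact Subgroup.mem_zpowers x)).symm
    · intro h y hy
      rw [hPcoe] at hy
      obtain ⟨k, rfl⟩ := Subgroup.mem_zpowers_iff.mp hy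
      exact (h.zpow_right k).eq.symm
  have hzC : Subgroup.zpowers x ≤ C := by
    rw [Subgroup.zpowers_le, hCmem]
  have h13 : 13 ∣ Nat.card C := by
    have := Subgroup.card_dvd_of_le hzC
    rwa [Nat.card_zpowers, hx] at this
  have hCdvd : Nat.card C ∣ 251596800 := hG ▸ Subgroup.card_subgroup_dvd_card C
  have hnd : ∀ r : ℕ, r.Prime → r ∣ Nat.card C → r ∣ 65 := by
    intro r hr hrd
    haveI : Fact r.Prime := ⟨hr⟩
    obtain ⟨c, hc⟩ := exists_prime_orderOf_dvd_card' r hrd
    have hc65 : (c : G) ^ 65 = 1 := hC c ((hCmem c).mp c.2)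
    have : orderOf (c : G) ∣ 65 := orderOf_dvd_of_pow_eq_one hc65
    rwa [Subgroup.orderOf_coe, hc] at this
  have hcop : Nat.Coprime (Nat.card C) (2 ^ 12 * 3 ^ 3 * 7) := by
    have hc2 : Nat.Coprime (Nat.card C) 2 := by
      rw [Nat.coprime_comm, Nat.Prime.coprime_iff_not_dvd Nat.prime_two]
      intro h; have := hnd 2 Nat.prime_two h; omega
    have hc3 : Nat.Coprime (Nat.card C) 3 := by
      rw [Nat.coprime_comm, Nat.Prime.coprime_iff_not_dvd Nat.prime_three]
      intro h; have := hnd 3 Nat.prime_three h; omega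
    have hc7 : Nat.Coprime (Nat.card C) 7 := by
      rw [Nat.coprime_comm, Nat.Prime.coprime_iff_not_dvd (by norm_num)]
      intro h; have := hnd 7 (by norm_num) h; omega
    exact ((hc2.pow_right 12).mul_right (hc3.pow_right 3)).mul_right hc7
  have hC325 : Nat.card C ∣ 325 := by
    have : Nat.card C ∣ (2 ^ 12 * 3 ^ 3 * 7) * 325 := by
      have e : (2 ^ 12 * 3 ^ 3 * 7) * 325 = 251596800 := by norm_num
      rw [e]; exact hCdvd
    exact hcop.dvd_of_dvd_mul_left this
  have hCcases : Nat.card C = 13 ∨ Nat.card C = 65 ∨ Nat.card C = 325 := by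
    obtain ⟨k, hk⟩ := h13
    rw [hk] at hC325 ⊢
    have hk25 : k ∣ 25 := by
      have : 13 * k ∣ 13 * 25 := hC325
      exact Nat.dvd_of_mul_dvd_mul_left (by norm_num) this
    have hkle : k ≤ 25 := Nat.le_of_dvd (by norm_num) hk25
    interval_cases k <;> simp_all (config := { decide := true })
  -- counting
  set n := Nat.card (Sylow 13 G) with hn
  set m := (C.subgroupOf N).index with hm
  have hmle : m ≤ 12 := Nat.le_of_dvd (by norm_num) key
  have hn13 : n % 13 = 1 := hn1
  have htot : n * (m * Nat.card C) = 251596800 := by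
    rw [← hG, ← h3, ← h1, h2, hn2]
  have hcard13 : Nat.card C = 13 := by
    rcases hCcases with h | h | h
    · exact h
    · exfalso
      rw [h] at htot
      interval_cases m <;> omega
    · exfalso
      rw [h] at htot
      interval_cases m <;> omega
  have hCeq : Subgroup.zpowers x = C := by
    apply Subgroup.eq_of_le_of_card_ge hzC
    rw [Nat.card_zpowers, hx, hcard13]
  intro c hc
  have hcz : c ∈ Subgroup.zpowers x := by
    rw [hCeq]; exact (hCmem c).mpr hc
  obtain ⟨k, rfl⟩ := Subgroup.mem_zpowers_iff.mp hcz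
  rw [← zpow_natCast, ← zpow_mul, mul_comm, zpow_mul, zpow_natCast, ← hx, pow_orderOf_eq_one,
    one_zpow]

end Cfsg.Agent.Lib.Helper56.G24S
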