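import Mathlib

/-!
# A computable model of the field with eight elements

`F8` is `𝔽₂[t]/(t³ + t + 1)`, with elements coded by the numbers `0..7` (bit `i` is the coefficient
of `tⁱ`). All field axioms are checked by `decide`, and arithmetic evaluates in the kernel.
-/

set_option autoImplicit false

namespace Cfsg.Agent.Lib.Helper56.GF8

/-- The field with eight elements: polynomials over `𝔽₂` modulo `t³ + t + 1`, coded by `0..7`. -/
structure F8 where
  v : Fin 8
  deriving DecidableEq, Fintype

namespace F8

def clmul (a b : ℕ) : ℕ :=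
  (if a.testBit 0 then b else 0) ^^^ (if a.testBit 1 then b <<< 1 else 0) ^^^
    (if a.testBit 2 then b <<< 2 else 0)

def red (c : ℕ) : ℕ :=
  (c &&& 7) ^^^ (if c.testBit 3 then 3 else 0) ^^^ (if c.testBit 4 then 6 else 0)

def add (a b : F8) : F8 := ⟨Fin.ofNat 8 (a.v.val ^^^ b.v.val)⟩
def mul (a b : F8) : F8 := ⟨Fin.ofNat 8 (red (clmul a.v.val b.v.val))⟩
def inv (a : F8) : F8 := mul (mul (mul a a) (mul a a)) (mul a a)

instance : Zero F8 := ⟨⟨0⟩⟩
instance : One F8 := ⟨⟨1⟩⟩
instance : Add F8 := ⟨add⟩
instance : Mul F8 := ⟨mul⟩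
instance : Neg F8 := ⟨fun a => a⟩
instance : Inv F8 := ⟨inv⟩

instance : Field F8 where
  add_assoc := by decide
  zero_add := by decide
  add_zero := by decide
  add_comm := by decide
  neg_add_cancel := by decide
  nsmul := nsmulRec
  zsmul := zsmulRec
  left_distrib := by decide
  right_distrib := by decide
  zero_mul := by decide
  mul_zero := by decide
  mul_assoc := by decide
  one_mul := by decide
  mul_one := by decide
  mul_comm := by decide
  exists_pair_ne := ⟨0, 1, by decide⟩
  mul_inv_cancel := by decide
  inv_zero := by decide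
  nnqsmul := _
  qsmul := _

theorem card : Fintype.card F8 = 8 := by decide

end F8

end Cfsg.Agent.Lib.Helper56.GF8
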