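import Mathlib

/-!
# A computable model of the field with nine elements

`F9` is `𝔽₃[i]` with `i² = -1`, the element `a + b i` coded by the number `a + 3 b` in `0..8`.
All field axioms are checked by `decide`, and arithmetic evaluates in the kernel.
-/

set_option autoImplicit false

namespace Cfsg.Agent.Lib.Helper56.GF9

/-- The field with nine elements: `a + b i` with `i² = -1`, coded by `a + 3 b`. -/
structure F9 where
  v : Fin 9
  deriving DecidableEq, Fintype

namespace F9

def add (a b : F9) : F9 :=
  ⟨Fin.ofNat 9 ((a.v.val % 3 + b.v.val % 3) % 3 + 3 * ((a.v.val / 3 + b.v.val / 3) % 3))⟩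
def mul (a b : F9) : F9 :=
  ⟨Fin.ofNat 9 (((a.v.val % 3) * (b.v.val % 3) + 2 * ((a.v.val / 3) * (b.v.val / 3))) % 3 +
    3 * (((a.v.val % 3) * (b.v.val / 3) + (b.v.val % 3) * (a.v.val / 3)) % 3))⟩
def neg (a : F9) : F9 :=
  ⟨Fin.ofNat 9 ((3 - a.v.val % 3) % 3 + 3 * ((3 - a.v.val / 3) % 3))⟩
def inv (a : F9) : F9 := mul a (mul (mul a a) (mul (mul a a) (mul a a)))

instance : Zero F9 := ⟨⟨0⟩⟩
instance : One F9 := ⟨⟨1⟩⟩
instance : Add F9 := ⟨add⟩
instance : Mul F9 := ⟨mul⟩
instance : Neg F9 := ⟨neg⟩
instance : Inv F9 := ⟨inv⟩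

instance : Field F9 where
  add_assoc := by decide +kernel
  zero_add := by decide +kernel
  add_zero := by decide +kernel
  add_comm := by decide +kernel
  neg_add_cancel := by decide +kernel
  nsmul := nsmulRec
  zsmul := zsmulRec
  left_distrib := by decide +kernel
  right_distrib := by decide +kernel
  zero_mul := by decide +kernel
  mul_zero := by decide +kernel
  mul_assoc := by decide +kernel
  one_mul := by decide +kernel
  mul_one := by decide +kernel
  mul_comm := by decide +kernel
  exists_pair_ne := ⟨0, 1, by decide⟩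
  mul_inv_cancel := by decide +kernel
  inv_zero := by decide +kernel
  nnqsmul := _
  qsmul := _

theorem card : Fintype.card F9 = 9 := by decide

end F9

end Cfsg.Agent.Lib.Helper56.GF9
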