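import Cfsg.Agent.S0157
import Cfsg.Agent.S0188
import Cfsg.Agent.S0190
import Cfsg.Agent.Lib.CT.IndChar
import Cfsg.Agent.Lib.CT.Ops
import Cfsg.Agent.Lib.Helper74.BLCore
import Cfsg.Agent.Lib.Helper56.GF8
import Cfsg.Agent.Lib.Helper56.SmallSolvable
import Cfsg.Prelude.Def_DegreeGraph

/-!
# A solvable group of order 6048 with an irreducible character of degree 42

`F56` is the affine group of the line over the field with 8 elements (it has an irreducible
character of degree 7, from its doubly transitive action), `K108` is the group of the affine maps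
`(x, y) ↦ (± x + b y + v, ± y + w)` of the plane over `ZMod 3` (the difference of its permutation
characters on the 9 points and on the 3 values of `y` is irreducible of degree 6).  The product
`F56 × K108` is solvable of order 6048 with an irreducible character of degree 42.
-/

set_option autoImplicit false

namespace Cfsg.Agent.Lib.Helper56.HSide

open Cfsg Cfsg.Agent.Lib.Helper56.GF8
open scoped ComplexConjugate

/-! ### The affine group of the line over `F8` -/

@[ext] structure F56 where
  k : Fin 7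
  b : F8
  deriving DecidableEq, Fintype

/-- The powers of the generator `t`. -/
def pw (k : Fin 7) : F8 := ![⟨1⟩, ⟨2⟩, ⟨4⟩, ⟨3⟩, ⟨6⟩, ⟨7⟩, ⟨5⟩] k

theorem pw_add : ∀ k l : Fin 7, pw (k + l) = pw k * pw l := by decide
theorem pw_zero : pw 0 = 1 := by decide

instance : Mul F56 := ⟨fun x y => ⟨x.k + y.k, pw x.k * y.b + x.b⟩⟩
instance : One F56 := ⟨⟨0, 0⟩⟩
instance : Inv F56 := ⟨fun x => ⟨-x.k, -(pw (-x.k) * x.b)⟩⟩

theorem mul_k (x y : F56) : (x * y).k = x.k + y.k := rfl
theorem mul_b (x y : F56) : (x * y).b = pw x.k * y.b + x.b := rfl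

instance : Group F56 := Group.ofLeftAxioms
  (by
    intro x y z
    apply F56.ext
    · simp only [mul_k]
      exact add_assoc _ _ _
    · simp only [mul_b, mul_k, pw_add]
      ring)
  (by decide)
  (by decide)

instance : MulAction F56 F8 where
  smul g x := pw g.k * x + g.b
  one_smul x := by
    show pw 0 * x + 0 = x
    rw [pw_zero, one_mul, add_zero]
  mul_smul g h x := by
    show pw (g * h).k * x + (g * h).b = pw g.k * (pw h.k * x + h.b) + g.b
    rw [mul_k, mul_b, pw_add]
    ring

theorem to01 : ∀ a b : F8, a ≠ b → ∃ g : F56, g • a = 0 ∧ g • b = 1 := by decide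

theorem two_trans56 : MulAction.IsMultiplyPretransitive F56 F8 2 := by
  rw [MulAction.is_two_pretransitive_iff]
  intro a b c d hab hcd
  obtain ⟨g1, h1, h2⟩ := to01 a b hab
  obtain ⟨g2, h3, h4⟩ := to01 c d hcd
  refine ⟨g2⁻¹ * g1, ?_, ?_⟩
  · rw [mul_smul, h1, ← h3, inv_smul_smul]
  · rw [mul_smul, h2, ← h4, inv_smul_smul]

instance pretrans56 : MulAction.IsPretransitive F56 F8 := by
  haveI := two_trans56
  exact MulAction.isPretransitive_of_is_two_pretransitive

/-- The irreducible character of degree 7. -/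
noncomputable def χ7 : F56 → ℂ := fun g => (Nat.card (MulAction.fixedBy F8 g) : ℂ) - 1

theorem irr7 : IsIrrCharacter F56 χ7 :=
  (Cfsg.Agent.S0157.result (G := F56) F8 (by
    rw [Nat.card_eq_fintype_card, F8.card]; norm_num)).mpr two_trans56

theorem χ7_one : χ7 1 = 7 := by
  have h : MulAction.fixedBy F8 (1 : F56) = Set.univ := by
    ext q
    simp
  show (Nat.card (MulAction.fixedBy F8 (1 : F56)) : ℂ) - 1 = 7
  rw [h, Nat.card_coe_set_eq, Set.ncard_univ, Nat.card_eq_fintype_card, F8.card]
  norm_num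

theorem card56 : Nat.card F56 = 56 := by
  rw [Nat.card_eq_fintype_card]
  decide

/-- The translations. -/
def tr : Multiplicative F8 →* F56 where
  toFun b := ⟨0, Multiplicative.toAdd b⟩
  map_one' := rfl
  map_mul' a b := by
    apply F56.ext
    · show (0 : Fin 7) = 0 + 0
      rw [add_zero]
    · show Multiplicative.toAdd (a * b) = pw 0 * Multiplicative.toAdd b + Multiplicative.toAdd a
      rw [pw_zero, one_mul, add_comm]
      rfl

/-- The linear part. -/
def pk : F56 →* Multiplicative (Fin 7) where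
  toFun g := Multiplicative.ofAdd g.k
  map_one' := rfl
  map_mul' _ _ := rfl

theorem solv56 : Group.IsSolvable F56 := by
  apply Group.isSolvable_of_ker_le_range tr pk
  intro g hg
  have h0 : g.k = 0 := by
    have : Multiplicative.ofAdd g.k = 1 := hg
    exact this
  refine ⟨Multiplicative.ofAdd g.b, ?_⟩
  apply F56.ext
  · exact h0.symm
  · rfl

/-! ### A group of affine maps of the plane over `ZMod 3` -/

@[ext] structure K108 where
  s : Fin 2
  t : Fin 2
  b : ZMod 3
  v : ZMod 3
  w : ZMod 3
  deriving DecidableEq, Fintype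

/-- The signs. -/
def sg (s : Fin 2) : ZMod 3 := ![1, 2] s

theorem sg_add : ∀ s t : Fin 2, sg (s + t) = sg s * sg t := by decide
theorem sg_zero : sg 0 = 1 := by decide

instance : Mul K108 := ⟨fun x y => ⟨x.s + y.s, x.t + y.t, sg x.s * y.b + x.b * sg y.t,
  sg x.s * y.v + x.b * y.w + x.v, sg x.t * y.w + x.w⟩⟩
instance : One K108 := ⟨⟨0, 0, 0, 0, 0⟩⟩
instance : Inv K108 := ⟨fun x => ⟨x.s, x.t, -(sg x.s * x.b * sg x.t),
  -(sg x.s * x.v) + sg x.s * x.b * sg x.t * x.w, -(sg x.t * x.w)⟩⟩

theorem kmul_s (x y : K108) : (x * y).s = x.s + y.s := rfl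
theorem kmul_t (x y : K108) : (x * y).t = x.t + y.t := rfl
theorem kmul_b (x y : K108) : (x * y).b = sg x.s * y.b + x.b * sg y.t := rfl
theorem kmul_v (x y : K108) : (x * y).v = sg x.s * y.v + x.b * y.w + x.v := rfl
theorem kmul_w (x y : K108) : (x * y).w = sg x.t * y.w + x.w := rfl

instance : Group K108 := Group.ofLeftAxioms
  (by
    intro x y z
    apply K108.ext
    · simp only [kmul_s]
      exact add_assoc _ _ _
    · simp only [kmul_t]
      exact add_assoc _ _ _
    · simp only [kmul_b, kmul_s, kmul_t, sg_add]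
      ring
    · simp only [kmul_v, kmul_b, kmul_w, kmul_s, sg_add]
      ring
    · simp only [kmul_w, kmul_t, sg_add]
      ring)
  (by decide +kernel)
  (by decide +kernel)

/-- The nine points. -/
@[ext] structure X9 where
  x : ZMod 3
  y : ZMod 3
  deriving DecidableEq, Fintype

/-- The three values of `y`. -/
@[ext] structure X3 where
  y : ZMod 3
  deriving DecidableEq, Fintype

instance : MulAction K108 X9 where
  smul g p := ⟨sg g.s * p.x + g.b * p.y + g.v, sg g.t * p.y + g.w⟩
  one_smul p := by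
    apply X9.ext
    · show sg 0 * p.x + 0 * p.y + 0 = p.x
      rw [sg_zero]
      ring
    · show sg 0 * p.y + 0 = p.y
      rw [sg_zero]
      ring
  mul_smul g h p := by
    apply X9.ext
    · show sg (g * h).s * p.x + (g * h).b * p.y + (g * h).v
        = sg g.s * (sg h.s * p.x + h.b * p.y + h.v) + g.b * (sg h.t * p.y + h.w) + g.v
      rw [kmul_s, kmul_b, kmul_v, sg_add]
      ring
    · show sg (g * h).t * p.y + (g * h).w = sg g.t * (sg h.t * p.y + h.w) + g.w
      rw [kmul_t, kmul_w, sg_add]
      ring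

instance : MulAction K108 X3 where
  smul g p := ⟨sg g.t * p.y + g.w⟩
  one_smul p := by
    apply X3.ext
    show sg 0 * p.y + 0 = p.y
    rw [sg_zero]
    ring
  mul_smul g h p := by
    apply X3.ext
    show sg (g * h).t * p.y + (g * h).w = sg g.t * (sg h.t * p.y + h.w) + g.w
    rw [kmul_t, kmul_w, sg_add]
    ring

instance pretrans9 : MulAction.IsPretransitive K108 X9 := ⟨by decide +kernel⟩
instance pretrans3 : MulAction.IsPretransitive K108 X3 := ⟨by decide +kernel⟩

noncomputable def π9 : K108 → ℂ := fun g => (Nat.card (MulAction.fixedBy X9 g) : ℂ)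
noncomputable def π3 : K108 → ℂ := fun g => (Nat.card (MulAction.fixedBy X3 g) : ℂ)

theorem isChar9 : IsCharacter K108 π9 := by
  have h := Cfsg.Agent.S0190.result (G := K108) X9 (⟨0, 0⟩ : X9)
  show IsCharacter K108 (fun g => (Nat.card (MulAction.fixedBy X9 g) : ℂ))
  rw [h]
  exact Cfsg.Agent.Lib.CT.IndChar.isCharacter_indFun _ _ Cfsg.Agent.Lib.CT.Ops.isCharacter_one

theorem isChar3 : IsCharacter K108 π3 := by
  have h := Cfsg.Agent.S0190.result (G := K108) X3 (⟨0⟩ : X3)
  show IsCharacter K108 (fun g => (Nat.card (MulAction.fixedBy X3 g) : ℂ))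
  rw [h]
  exact Cfsg.Agent.Lib.CT.IndChar.isCharacter_indFun _ _ Cfsg.Agent.Lib.CT.Ops.isCharacter_one

/-- The irreducible character of degree 6. -/
noncomputable def β6 : K108 → ℂ := π9 - π3

theorem isGen6 : IsGeneralizedCharacter K108 β6 := ⟨π9, π3, isChar9, isChar3, rfl⟩

def n9 (g : K108) : ℕ := (Finset.univ.filter (fun p : X9 => g • p = p)).card
def n3 (g : K108) : ℕ := (Finset.univ.filter (fun p : X3 => g • p = p)).card

theorem card_fixedBy {G X : Type*} [Group G] [MulAction G X] [Fintype X] [DecidableEq X] (g : G) :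
    Nat.card (MulAction.fixedBy X g) = (Finset.univ.filter (fun p : X => g • p = p)).card := by
  rw [← Nat.card_eq_finsetCard]
  apply Nat.card_congr
  apply Equiv.subtypeEquivRight
  intro q
  simp [MulAction.mem_fixedBy]

theorem β_val (g : K108) : β6 g = (((n9 g : ℤ) - n3 g : ℤ) : ℂ) := by
  show (Nat.card (MulAction.fixedBy X9 g) : ℂ) - (Nat.card (MulAction.fixedBy X3 g) : ℂ) = _
  rw [card_fixedBy, card_fixedBy]
  simp [n9, n3]

set_option maxRecDepth 100000 in
theorem sum_sq : ∑ g : K108, ((n9 g : ℤ) - n3 g) * ((n9 g : ℤ) - n3 g) = 108 := by decide +kernel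

theorem card108 : Nat.card K108 = 108 := by
  rw [Nat.card_eq_fintype_card]
  decide

theorem norm_β : classInner β6 β6 = 1 := by
  unfold classInner
  have e : ∀ g : K108, β6 g * conj (β6 g)
      = ((((n9 g : ℤ) - n3 g) * ((n9 g : ℤ) - n3 g) : ℤ) : ℂ) := by
    intro g
    rw [β_val]
    simp
  rw [Finset.sum_congr rfl (fun g _ => e g), ← Int.cast_sum, sum_sq, card108]
  norm_num

theorem β6_one : β6 1 = 6 := by
  rw [β_val]
  have e : ((n9 1 : ℤ) - n3 1 : ℤ) = 6 := by decide
  rw [e]
  norm_num

theorem irr6 : IsIrrCharacter K108 β6 :=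
  Cfsg.Agent.Lib.Helper74.BLCore.irr_of_norm_one isGen6 norm_β 6 (by norm_num) (by
    rw [β6_one]; norm_num)

theorem solv108 : Group.IsSolvable K108 := by
  haveI : Fact (Nat.Prime 3) := ⟨by norm_num⟩
  exact Cfsg.Agent.Lib.Helper56.SmallSolvable.solvable_of_card_eq_pow_mul 3 3 4
    (by rw [card108]; norm_num) (by norm_num)

/-! ### The product -/

/-- The solvable group of order 6048. -/
abbrev H : Type := F56 × K108

theorem solvH : Group.IsSolvable H := by
  haveI := solv56
  haveI := solv108
  infer_instance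

theorem cardH : Nat.card H = 6048 := by
  rw [Nat.card_prod, card56, card108]

theorem mem42 : 42 ∈ charDegrees H := by
  have h : IsIrrCharacter H (fun x => χ7 x.1 * β6 x.2) :=
    (Cfsg.Agent.S0188.result (G := F56) (H := K108) _).mpr ⟨χ7, β6, irr7, irr6, rfl⟩
  refine ⟨⟨_, h⟩, ?_⟩
  show ⌊(χ7 (1 : H).1 * β6 (1 : H).2).re⌋₊ = 42
  rw [Prod.fst_one, Prod.snd_one, χ7_one, β6_one]
  norm_num

end Cfsg.Agent.Lib.Helper56.HSide
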