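import Mathlib
import Cfsg.Agent.Lib.Helper26.J3Stmt

/-! Shared core for the pieces FR2 / FR3 of S3366: normal forms `a ^ i * b ^ j * w ^ k` in a group
where `w` is central of order dividing 3, `a ^ 3 = b ^ 3 = 1` and `b * a = a * b * w⁻¹`. -/

set_option autoImplicit false
universe u

namespace Cfsg.Agent.Lib.Helper56.J3FRCore

open Cfsg.Agent.Lib.Helper26.J3Stmt

variable {X : Type u} [Group X]

theorem step1 {a b c : X} (hc : ∀ x : X, c * x = x * c) (hba : b * a = a * b * c) (i : ℕ) :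
    b * a ^ i = a ^ i * b * c ^ i := by
  induction i with
  | zero => simp
  | succ i ih =>
    have hci : ∀ x : X, c ^ i * x = x * c ^ i := fun x =>
      (Commute.pow_left (show Commute c x from hc x) i).eq
    calc b * a ^ (i + 1) = (b * a ^ i) * a := by rw [pow_succ, mul_assoc]
      _ = a ^ i * b * c ^ i * a := by rw [ih]
      _ = a ^ i * b * (a * c ^ i) := by rw [mul_assoc (a ^ i * b), hci a]
      _ = a ^ i * (b * a) * c ^ i := by simp only [mul_assoc]
      _ = a ^ i * (a * b * c) * c ^ i := by rw [hba]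
      _ = a ^ (i + 1) * b * c ^ (i + 1) := by
            rw [pow_succ a, pow_succ' c]; simp only [mul_assoc]

theorem step2 {a b c : X} (hc : ∀ x : X, c * x = x * c) (hba : b * a = a * b * c) (i j : ℕ) :
    b ^ j * a ^ i = a ^ i * b ^ j * c ^ (i * j) := by
  induction j with
  | zero => simp
  | succ j ih =>
    have hcn : ∀ (n : ℕ) (x : X), c ^ n * x = x * c ^ n := fun n x =>
      (Commute.pow_left (show Commute c x from hc x) n).eq
    calc b ^ (j + 1) * a ^ i = b ^ j * (b * a ^ i) := by rw [pow_succ, mul_assoc]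
      _ = b ^ j * (a ^ i * b * c ^ i) := by rw [step1 hc hba i]
      _ = (b ^ j * a ^ i) * b * c ^ i := by simp only [mul_assoc]
      _ = a ^ i * b ^ j * c ^ (i * j) * b * c ^ i := by rw [ih]
      _ = a ^ i * b ^ j * (b * c ^ (i * j)) * c ^ i := by
            rw [mul_assoc (a ^ i * b ^ j) (c ^ (i * j)) b, hcn]
      _ = a ^ i * b ^ (j + 1) * c ^ (i * (j + 1)) := by
            rw [pow_succ b, Nat.mul_succ, pow_add]; simp only [mul_assoc]

/-- powers of an element of order dividing 3 only depend on the exponent mod 3. -/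
theorem pow_congr3 {g : X} (hg : g ^ 3 = 1) {n m : ℕ} (h : (n : ZMod 3) = (m : ZMod 3)) :
    g ^ n = g ^ m := by
  have h' : n % 3 = m % 3 := (ZMod.natCast_eq_natCast_iff' n m 3).mp h
  rw [pow_eq_pow_mod n hg, pow_eq_pow_mod m hg, h']

theorem inv_pow3 {w : X} (hw3 : w ^ 3 = 1) (n : ℕ) : (w⁻¹) ^ n = w ^ (2 * n) := by
  have h : w⁻¹ = w ^ 2 := by
    apply inv_eq_of_mul_eq_one_left
    rw [← pow_succ]; exact hw3
  rw [h, ← pow_mul]

/-- the standing hypotheses. -/
structure Heis (a b w : X) : Prop where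
  cen : ∀ x : X, w * x = x * w
  ha : a ^ 3 = 1
  hb : b ^ 3 = 1
  hw : w ^ 3 = 1
  hba : b * a = a * b * w⁻¹

/-- normal form. -/
def N (a b w : X) (i j k : ℕ) : X := a ^ i * b ^ j * w ^ k

theorem N_mul {a b w : X} (H : Heis a b w) (i j k i' j' k' : ℕ) :
    N a b w i j k * N a b w i' j' k' = N a b w (i + i') (j + j') (2 * (i' * j) + k + k') := by
  have hwn : ∀ (n : ℕ) (x : X), w ^ n * x = x * w ^ n := fun n x =>
    (Commute.pow_left (show Commute w x from H.cen x) n).eq
  have hci : ∀ x : X, w⁻¹ * x = x * w⁻¹ := fun x => by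
    have := H.cen x
    calc w⁻¹ * x = w⁻¹ * (x * w) * w⁻¹ := by group
      _ = w⁻¹ * (w * x) * w⁻¹ := by rw [this]
      _ = x * w⁻¹ := by group
  have h2 : b ^ j * a ^ i' = a ^ i' * b ^ j * w ^ (2 * (i' * j)) := by
    rw [step2 hci H.hba i' j, inv_pow3 H.hw]
  unfold N
  calc a ^ i * b ^ j * w ^ k * (a ^ i' * b ^ j' * w ^ k')
      = a ^ i * b ^ j * ((a ^ i' * b ^ j' * w ^ k') * w ^ k) := by
        rw [mul_assoc (a ^ i * b ^ j), hwn]
    _ = a ^ i * (b ^ j * a ^ i') * b ^ j' * w ^ k' * w ^ k := by simp only [mul_assoc]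
    _ = a ^ i * (a ^ i' * b ^ j * w ^ (2 * (i' * j))) * b ^ j' * w ^ k' * w ^ k := by rw [h2]
    _ = a ^ i * a ^ i' * b ^ j * (w ^ (2 * (i' * j)) * b ^ j') * w ^ k' * w ^ k := by
        simp only [mul_assoc]
    _ = a ^ i * a ^ i' * b ^ j * (b ^ j' * w ^ (2 * (i' * j))) * w ^ k' * w ^ k := by rw [hwn]
    _ = a ^ (i + i') * b ^ (j + j') * w ^ (2 * (i' * j) + k + k') := by
        have e : w ^ (2 * (i' * j) + k + k') = w ^ (2 * (i' * j)) * w ^ k' * w ^ k := by
          rw [← pow_add, ← pow_add]; congr 1; omega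
        rw [pow_add a, pow_add b, e]; simp only [mul_assoc]

theorem N_congr {a b w : X} (H : Heis a b w) {i j k i' j' k' : ℕ}
    (hi : (i : ZMod 3) = (i' : ZMod 3)) (hj : (j : ZMod 3) = (j' : ZMod 3))
    (hk : (k : ZMod 3) = (k' : ZMod 3)) : N a b w i j k = N a b w i' j' k' := by
  unfold N
  rw [pow_congr3 H.ha hi, pow_congr3 H.hb hj, pow_congr3 H.hw hk]

theorem N_one {a b w : X} (H : Heis a b w) {i j k : ℕ}
    (hi : (i : ZMod 3) = 0) (hj : (j : ZMod 3) = 0) (hk : (k : ZMod 3) = 0) : N a b w i j k = 1 := by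
  have := N_congr H (i := i) (j := j) (k := k) (i' := 0) (j' := 0) (k' := 0)
    (by simpa using hi) (by simpa using hj) (by simpa using hk)
  rw [this]; simp [N]

theorem pow_eq_pow3 {w : X} (hw3 : w ^ 3 = 1) (hw1 : w ≠ 1) {n m : ℕ} (h : w ^ n = w ^ m) :
    (n : ZMod 3) = (m : ZMod 3) := by
  have ho : orderOf w = 3 := orderOf_eq_prime hw3 hw1
  have := (pow_eq_pow_iff_modEq (x := w) (n := n) (m := m)).mp h
  rw [ho] at this
  exact (ZMod.natCast_eq_natCast_iff n m 3).mpr this

theorem N_w {a b w : X} (i j k m : ℕ) : N a b w i j (k + m) = N a b w i j k * w ^ m := by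
  unfold N; rw [pow_add]; simp only [mul_assoc]

theorem N_mul_a {a b w : X} (H : Heis a b w) (i j k : ℕ) :
    N a b w i j k * a = N a b w (i + 1) j k * w ^ (2 * j) := by
  have ea : N a b w 1 0 0 = a := by simp [N]
  calc N a b w i j k * a = N a b w i j k * N a b w 1 0 0 := by rw [ea]
    _ = N a b w (i + 1) (j + 0) (2 * (1 * j) + k + 0) := N_mul H _ _ _ _ _ _
    _ = N a b w (i + 1) j (k + 2 * j) := by
        rw [show j + 0 = j from rfl, show 2 * (1 * j) + k + 0 = k + 2 * j by omega]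
    _ = N a b w (i + 1) j k * w ^ (2 * j) := N_w _ _ _ _

theorem a_mul_N {a b w : X} (H : Heis a b w) (i j k : ℕ) :
    a * N a b w i j k = N a b w (i + 1) j k := by
  have ea : N a b w 1 0 0 = a := by simp [N]
  calc a * N a b w i j k = N a b w 1 0 0 * N a b w i j k := by rw [ea]
    _ = N a b w (1 + i) (0 + j) (2 * (i * 0) + 0 + k) := N_mul H _ _ _ _ _ _
    _ = N a b w (i + 1) j k := by
        rw [show 1 + i = i + 1 by omega, show 0 + j = j by omega,
          show 2 * (i * 0) + 0 + k = k by omega]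

theorem N_mul_b {a b w : X} (H : Heis a b w) (i j k : ℕ) :
    N a b w i j k * b = N a b w i (j + 1) k := by
  have eb : N a b w 0 1 0 = b := by simp [N]
  calc N a b w i j k * b = N a b w i j k * N a b w 0 1 0 := by rw [eb]
    _ = N a b w (i + 0) (j + 1) (2 * (0 * j) + k + 0) := N_mul H _ _ _ _ _ _
    _ = N a b w i (j + 1) k := by
        rw [show i + 0 = i from rfl, show 2 * (0 * j) + k + 0 = k by omega]

theorem b_mul_N {a b w : X} (H : Heis a b w) (i j k : ℕ) :
    b * N a b w i j k = N a b w i (j + 1) k * w ^ (2 * i) := by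
  have eb : N a b w 0 1 0 = b := by simp [N]
  calc b * N a b w i j k = N a b w 0 1 0 * N a b w i j k := by rw [eb]
    _ = N a b w (0 + i) (1 + j) (2 * (i * 1) + 0 + k) := N_mul H _ _ _ _ _ _
    _ = N a b w i (j + 1) (k + 2 * i) := by
        rw [show 0 + i = i by omega, show 1 + j = j + 1 by omega,
          show 2 * (i * 1) + 0 + k = k + 2 * i by omega]
    _ = N a b w i (j + 1) k * w ^ (2 * i) := N_w _ _ _ _

/-- uniqueness of the normal form. -/
theorem N_inj {a b w : X} (H : Heis a b w) (hw1 : w ≠ 1) {i j k i' j' k' : ℕ}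
    (h : N a b w i j k = N a b w i' j' k') :
    (i : ZMod 3) = (i' : ZMod 3) ∧ (j : ZMod 3) = (j' : ZMod 3) ∧ (k : ZMod 3) = (k' : ZMod 3) := by
  have h2u : ∀ p q : ZMod 3, 2 * p = 2 * q → p = q := by decide
  -- commutator with `a`
  have h1 : a * N a b w i j k * w ^ (2 * j) = a * N a b w i j k * w ^ (2 * j') := by
    calc a * N a b w i j k * w ^ (2 * j) = N a b w i j k * a := by
          rw [a_mul_N H, N_mul_a H]
      _ = N a b w i' j' k' * a := by rw [h]
      _ = a * N a b w i' j' k' * w ^ (2 * j') := by rw [a_mul_N H, N_mul_a H]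
      _ = a * N a b w i j k * w ^ (2 * j') := by rw [h]
  have hj2 : ((2 * j : ℕ) : ZMod 3) = ((2 * j' : ℕ) : ZMod 3) :=
    pow_eq_pow3 H.hw hw1 (mul_left_cancel h1)
  have hj : (j : ZMod 3) = (j' : ZMod 3) := by
    push_cast at hj2
    exact h2u _ _ hj2
  -- commutator with `b`
  have h3 : N a b w i j k * b * w ^ (2 * i) = N a b w i j k * b * w ^ (2 * i') := by
    calc N a b w i j k * b * w ^ (2 * i) = b * N a b w i j k := by
          rw [N_mul_b H, b_mul_N H]
      _ = b * N a b w i' j' k' := by rw [h]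
      _ = N a b w i' j' k' * b * w ^ (2 * i') := by rw [N_mul_b H, b_mul_N H]
      _ = N a b w i j k * b * w ^ (2 * i') := by rw [h]
  have hi2 : ((2 * i : ℕ) : ZMod 3) = ((2 * i' : ℕ) : ZMod 3) :=
    pow_eq_pow3 H.hw hw1 (mul_left_cancel h3)
  have hi : (i : ZMod 3) = (i' : ZMod 3) := by
    push_cast at hi2
    exact h2u _ _ hi2
  refine ⟨hi, hj, ?_⟩
  have h5 : N a b w i j k = N a b w i j k' := by
    rw [h]; exact (N_congr H hi hj rfl).symm
  unfold N at h5
  exact pow_eq_pow3 H.hw hw1 (mul_left_cancel h5)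

end Cfsg.Agent.Lib.Helper56.J3FRCore
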