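import Mathlib
import Cfsg.Agent.Lib.Helper26.J3Stmt
import Cfsg.Agent.Lib.Helper56.J3FRCore

/-! Piece FR2 of S3366 (helper26's call): the frame `iotaOf r1 r2`, `zOf r1 r2`. -/

set_option autoImplicit false
universe u

namespace Cfsg.Agent.Lib.Helper56.J3FR2

open Cfsg.Agent.Lib.Helper26.J3Stmt Cfsg.Agent.Lib.Helper56.J3FRCore

variable {X : Type u} [Group X]

/-- the Heisenberg relations for two elements of `R`. -/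
theorem heis (hH : Hyp X) (hZ : ZFacts X) {r1 r2 : X} (h1 : r1 ∈ R X) (h2 : r2 ∈ R X) :
    Heis r1 r2 (r1 * r2 * r1⁻¹ * r2⁻¹) := by
  have hwZ : r1 * r2 * r1⁻¹ * r2⁻¹ ∈ Zc X := hZ.2.2.1 r1 h1 r2 h2
  have hwR : r1 * r2 * r1⁻¹ * r2⁻¹ ∈ R X := hZ.2.1 hwZ
  have hcen : ∀ x : X, (r1 * r2 * r1⁻¹ * r2⁻¹) * x = x * (r1 * r2 * r1⁻¹ * r2⁻¹) :=
    fun x => (hZ.2.2.2.2 _ hwZ x).symm
  refine ⟨hcen, hH.2.2.2.1 r1 h1, hH.2.2.2.1 r2 h2, hH.2.2.2.1 _ hwR, ?_⟩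
  have hci : (r1 * r2 * r1⁻¹ * r2⁻¹)⁻¹ * (r1 * r2) = (r1 * r2) * (r1 * r2 * r1⁻¹ * r2⁻¹)⁻¹ := by
    have := hcen (r1 * r2)
    calc (r1 * r2 * r1⁻¹ * r2⁻¹)⁻¹ * (r1 * r2)
        = (r1 * r2 * r1⁻¹ * r2⁻¹)⁻¹ * ((r1 * r2) * (r1 * r2 * r1⁻¹ * r2⁻¹)) *
            (r1 * r2 * r1⁻¹ * r2⁻¹)⁻¹ := by group
      _ = (r1 * r2 * r1⁻¹ * r2⁻¹)⁻¹ * ((r1 * r2 * r1⁻¹ * r2⁻¹) * (r1 * r2)) *
            (r1 * r2 * r1⁻¹ * r2⁻¹)⁻¹ := by rw [this]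
      _ = (r1 * r2) * (r1 * r2 * r1⁻¹ * r2⁻¹)⁻¹ := by group
  calc r2 * r1 = (r1 * r2 * r1⁻¹ * r2⁻¹)⁻¹ * (r1 * r2) := by group
    _ = r1 * r2 * (r1 * r2 * r1⁻¹ * r2⁻¹)⁻¹ := hci

theorem iota_eq (r1 r2 : X) (u : V) :
    iotaOf r1 r2 u = N r1 r2 (r1 * r2 * r1⁻¹ * r2⁻¹) (u 0).val (u 1).val (u 0 * u 1).val := rfl

theorem iota_mem {r1 r2 : X} (h1 : r1 ∈ R X) (h2 : r2 ∈ R X) (u : V) : iotaOf r1 r2 u ∈ R X := by
  rw [iota_eq]; unfold N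
  exact mul_mem (mul_mem (pow_mem h1 _) (pow_mem h2 _))
    (pow_mem (mul_mem (mul_mem (mul_mem h1 h2) (inv_mem h1)) (inv_mem h2)) _)

/-- the multiplication law. -/
theorem law (hH : Hyp X) (hZ : ZFacts X) {r1 r2 : X} (h1 : r1 ∈ R X) (h2 : r2 ∈ R X) (u v : V) :
    iotaOf r1 r2 u * iotaOf r1 r2 v =
      iotaOf r1 r2 (u + v) * zOf r1 r2 ^ (u 0 * v 1 - u 1 * v 0).val := by
  have H := heis hH hZ h1 h2
  have key : ∀ p q r s : ZMod 3,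
      2 * (r * q) + p * q + r * s = (p + r) * (q + s) + 2 * (p * s - q * r) := by decide
  rw [iota_eq, iota_eq, iota_eq, N_mul H]
  have hz : zOf r1 r2 = (r1 * r2 * r1⁻¹ * r2⁻¹)⁻¹ := rfl
  rw [hz, inv_pow3 H.hw, ← N_w]
  apply N_congr H
  · push_cast; simp [ZMod.natCast_zmod_val]
  · push_cast; simp [ZMod.natCast_zmod_val]
  · push_cast
    simp only [ZMod.natCast_zmod_val, Pi.add_apply]
    exact key _ _ _ _

theorem main : FR2.{u} := by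
  intro X _ hH hZ t hT r1 h1 r2 h2 ht1 ht2 hne
  have H := heis hH hZ h1 h2
  have hwZ : r1 * r2 * r1⁻¹ * r2⁻¹ ∈ Zc X := hZ.2.2.1 r1 h1 r2 h2
  refine ⟨iota_mem h1 h2, ?_, ?_, ?_, law hH hZ h1 h2⟩
  · -- inversion by `t`
    intro u
    have hconj : ∀ x y : X, t * (x * y) * t⁻¹ = (t * x * t⁻¹) * (t * y * t⁻¹) := by
      intro x y; group
    have hpow : ∀ (x : X) (n : ℕ), t * x ^ n * t⁻¹ = (t * x * t⁻¹) ^ n := by
      intro x n; rw [conj_pow]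
    have htw : t * (r1 * r2 * r1⁻¹ * r2⁻¹) * t⁻¹ = r1 * r2 * r1⁻¹ * r2⁻¹ := by
      rw [← H.cen t]; group
    have e1 : t * iotaOf r1 r2 u * t⁻¹ =
        N r1 r2 (r1 * r2 * r1⁻¹ * r2⁻¹) (2 * (u 0).val) (2 * (u 1).val) (u 0 * u 1).val := by
      rw [iota_eq]; unfold N
      rw [hconj, hconj, hpow, hpow, hpow, ht1, ht2, htw, inv_pow3 H.ha, inv_pow3 H.hb]
    rw [e1]
    apply eq_inv_of_mul_eq_one_right
    rw [iota_eq, N_mul H]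
    have k1 : ∀ p : ZMod 3, p + 2 * p = 0 := by decide
    have k2 : ∀ p q : ZMod 3, 2 * (2 * p * q) + p * q + p * q = 0 := by decide
    apply N_one H
    · push_cast; simp only [ZMod.natCast_zmod_val]; exact k1 _
    · push_cast; simp only [ZMod.natCast_zmod_val]; exact k1 _
    · push_cast; simp only [ZMod.natCast_zmod_val]; exact k2 _ _
  · -- `zOf ∈ Zc`
    exact inv_mem hwZ
  · -- `zOf ≠ 1`
    intro h
    apply hne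
    have hw1 : r1 * r2 * r1⁻¹ * r2⁻¹ = 1 := inv_eq_one.mp h
    calc r1 * r2 = (r1 * r2 * r1⁻¹ * r2⁻¹) * (r2 * r1) := by group
      _ = r2 * r1 := by rw [hw1, one_mul]

end Cfsg.Agent.Lib.Helper56.J3FR2
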