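import Cfsg.Agent.Lib.Helper56.P6048S
import Cfsg.Agent.Lib.Helper56.GF9
import Cfsg.Agent.S0278

/-!
# The group `P` of `P6048` is `PSU(3, 3)`

`iso_PSU`: for every field `K` with nine elements, `P ≃* Cfsg.PSU 3 K 3`.
-/

set_option autoImplicit false

namespace Cfsg.Agent.Lib.Helper56.SU33

open Cfsg.Agent.Lib.Helper56.P6048 Cfsg.Agent.Lib.Helper56.P6048S Cfsg.Agent.Lib.Helper56.GF9
open Matrix

abbrev S9 := Matrix.SpecialLinearGroup (Fin 3) F9

def gA : S9 := ⟨!![⟨0⟩, ⟨0⟩, ⟨1⟩; ⟨0⟩, ⟨2⟩, ⟨0⟩; ⟨1⟩, ⟨0⟩, ⟨0⟩], by rw [Matrix.det_fin_three]; decide⟩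
def gB : S9 := ⟨!![⟨1⟩, ⟨0⟩, ⟨0⟩; ⟨0⟩, ⟨5⟩, ⟨5⟩; ⟨0⟩, ⟨4⟩, ⟨8⟩], by rw [Matrix.det_fin_three]; decide⟩
def gBi : S9 := ⟨!![⟨1⟩, ⟨0⟩, ⟨0⟩; ⟨0⟩, ⟨8⟩, ⟨7⟩; ⟨0⟩, ⟨8⟩, ⟨5⟩], by rw [Matrix.det_fin_three]; decide⟩

theorem gB_inv : gB⁻¹ = gBi := inv_eq_of_mul_eq_one_right (by decide +kernel)

/-- The letters, with an explicit inverse. -/
def lettE : ℕ → S9
  | 0 => gA
  | 1 => gB
  | _ => gBi

theorem lett_eq : lett gA gB = lettE := by
  funext a
  rcases a with _ | _ | a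
  · rfl
  · rfl
  · exact gB_inv

set_option maxRecDepth 100000 in
theorem relS0 : ∀ w ∈ relsL, (w.map lettE).prod = 1 := by decide +kernel

theorem relS : ∀ w ∈ relsL, (w.map (lett gA gB)).prod = 1 := by
  rw [lett_eq]
  exact relS0

theorem unitA : gA.1ᵀ * gA.1.map (fun x => x ^ 3) = 1 := by decide +kernel
theorem unitB : gB.1ᵀ * gB.1.map (fun x => x ^ 3) = 1 := by decide +kernel

theorem gA_entry : gA.1 0 0 = 0 := by decide

section field

variable {K : Type*} [Field K] [Fintype K] (hK : Fintype.card K = 3 ^ 2) (f : F9 →+* K)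

include hK in
theorem map_mem (M : S9) (h : M.1ᵀ * M.1.map (fun x => x ^ 3) = 1) :
    Matrix.SpecialLinearGroup.map f M ∈ Cfsg.SU 3 K 3 := by
  obtain ⟨φ, hφ, -⟩ := Cfsg.Agent.Lib.Helper45.GUCard.exists_conj hK
  rw [Cfsg.Agent.Lib.Helper45.SUCard.mem_SU_iff]
  intro u v
  have hN : ((Matrix.SpecialLinearGroup.map f M : Matrix.SpecialLinearGroup (Fin 3) K) :
      Matrix (Fin 3) (Fin 3) K) = M.1.map f := rfl
  rw [hN, Cfsg.Agent.Lib.Helper45.GUCard.herm_eq φ hφ, Cfsg.Agent.Lib.Helper45.GUCard.herm_eq φ hφ]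
  have h1 : (φ ∘ (M.1.map f *ᵥ v)) = ((M.1.map f).map φ) *ᵥ (φ ∘ v) := by
    funext i
    exact RingHom.map_mulVec φ _ v i
  have h2 : (M.1.map f).map φ = (M.1.map (fun x => x ^ 3)).map f := by
    ext i j
    simp [Matrix.map_apply, hφ, map_pow]
  have h3 : (M.1.map f)ᵀ * (M.1.map (fun x => x ^ 3)).map f = 1 := by
    rw [← Matrix.transpose_map, ← Matrix.map_mul, h, Matrix.map_one f (map_zero f) (map_one f)]
  rw [h1, h2, Matrix.dotProduct_mulVec, ← Matrix.vecMul_transpose, Matrix.vecMul_vecMul, h3,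
    Matrix.vecMul_one]

/-- The map to `SL(3, K)`. -/
noncomputable def σ : P →* Matrix.SpecialLinearGroup (Fin 3) K :=
  (Matrix.SpecialLinearGroup.map f).comp (hom gA gB relS)

theorem σ_x : σ f x = Matrix.SpecialLinearGroup.map f gA := by
  show Matrix.SpecialLinearGroup.map f (hom gA gB relS x) = _
  rw [hom_x]

theorem σ_y : σ f y = Matrix.SpecialLinearGroup.map f gB := by
  show Matrix.SpecialLinearGroup.map f (hom gA gB relS y) = _
  rw [hom_y]

include hK in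
theorem σ_mem (p : P) : σ f p ∈ Cfsg.SU 3 K 3 := by
  have hgen : ∀ j : Fin 2, (PresentedGroup.of j : P) ∈ (Cfsg.SU 3 K 3).comap (σ f) := by
    intro j
    fin_cases j
    · show σ f x ∈ Cfsg.SU 3 K 3
      rw [σ_x]
      exact map_mem hK f gA unitA
    · show σ f y ∈ Cfsg.SU 3 K 3
      rw [σ_y]
      exact map_mem hK f gB unitB
  exact PresentedGroup.generated_by rels _ hgen p

/-- The map to `SU(3, K)`. -/
noncomputable def ψ : P →* ↥(Cfsg.SU 3 K 3) := (σ f).codRestrict _ (σ_mem hK f)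

theorem ψ_inj : Function.Injective (ψ hK f) := by
  apply inj_of_ne
  intro h
  have h1 : σ f x = 1 := congrArg Subtype.val h
  rw [σ_x] at h1
  have h3 := congrArg (fun s : Matrix.SpecialLinearGroup (Fin 3) K =>
    (s : Matrix (Fin 3) (Fin 3) K) 0 0) h1
  have h4 : f (gA.1 0 0) = 1 := h3
  rw [gA_entry, map_zero] at h4
  exact zero_ne_one h4

include hK in
theorem card_SU : Nat.card ↥(Cfsg.SU 3 K 3) = 6048 := by
  have h := Cfsg.Agent.S0278.result hK 3 (by norm_num)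
  have h2 : 3 ^ (3 * (3 - 1) / 2) * ∏ i ∈ Finset.range 3,
      (if Even i then 3 ^ (i + 1) + 1 else 3 ^ (i + 1) - 1) = 24192 := by decide
  rw [h2] at h
  omega

include hK f in
theorem iso_SU : Nonempty (P ≃* ↥(Cfsg.SU 3 K 3)) := by
  have hfin : Finite ↥(Cfsg.SU 3 K 3) :=
    Nat.finite_of_card_ne_zero (by rw [card_SU hK]; norm_num)
  have hb : Function.Bijective (ψ hK f) :=
    (ψ_inj hK f).bijective_of_nat_card_le (by rw [card_SU hK, card_P])
  exact ⟨MulEquiv.ofBijective _ hb⟩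

end field

theorem xy_ne : x * y ≠ y * x := by
  intro h
  have h1 := congrArg ρ h
  rw [map_mul, map_mul, ρ_x, ρ_y] at h1
  revert h1
  decide +kernel

theorem center_P : Subgroup.center P = ⊥ := by
  haveI := simple_P
  rcases (inferInstance : (Subgroup.center P).Normal).eq_bot_or_eq_top with h | h
  · exact h
  · exfalso
    have hy : y ∈ Subgroup.center P := h ▸ Subgroup.mem_top y
    exact xy_ne (Subgroup.mem_center_iff.1 hy x)

/-- The presented group is `PSU(3, 3)`. -/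
theorem iso_PSU {K : Type*} [Field K] [Fintype K] (hK : Fintype.card K = 9) :
    Nonempty (P ≃* Cfsg.PSU 3 K 3) := by
  classical
  let f : F9 →+* K := (FiniteField.ringEquivOfCardEq (F9.card.trans hK.symm)).toRingHom
  have hK' : Fintype.card K = 3 ^ 2 := by rw [hK]; norm_num
  obtain ⟨e⟩ := iso_SU hK' f
  have hc : Subgroup.center ↥(Cfsg.SU 3 K 3) = ⊥ := by
    rw [Subgroup.eq_bot_iff_forall]
    intro z hz
    have hp : e.symm z ∈ Subgroup.center P := by
      rw [Subgroup.mem_center_iff]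
      intro g
      apply e.injective
      rw [map_mul, map_mul, e.apply_symm_apply]
      exact (Subgroup.mem_center_iff.1 hz) (e g)
    rw [center_P, Subgroup.mem_bot] at hp
    have h1 := congrArg e hp
    rwa [e.apply_symm_apply, map_one] at h1
  exact ⟨e.trans ((QuotientGroup.quotientBot (G := ↥(Cfsg.SU 3 K 3))).symm.trans
    (QuotientGroup.quotientMulEquivOfEq hc.symm))⟩

end Cfsg.Agent.Lib.Helper56.SU33
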