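import Cfsg.Agent.Lib.Helper38.Sp4Stmt

set_option autoImplicit false

/-! Piece GFUS of S5320 (helper56): in `PSp₄(F)`, `2 ≠ 0`, the swap is conjugate to the image of
`diag(-1, 1, -1, 1)`. -/

namespace Cfsg.Agent.Lib.Helper56.Sp4GFUS

open Matrix Cfsg.Agent.Lib.Helper38.Sp4Stmt

universe u

variable {F : Type u} [Field F]

/-- `h = [[1, 1], [1, -1]]` -/
def hM (F : Type u) [Field F] : Matrix (Fin 2) (Fin 2) F := !![1, 1; 1, -1]

/-- the conjugating matrix `fromBlocks (h / 2) 0 0 h` -/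
def GM (F : Type u) [Field F] : Matrix (Fin 2 ⊕ Fin 2) (Fin 2 ⊕ Fin 2) F :=
  Matrix.fromBlocks ((2 : F)⁻¹ • hM F) 0 0 (hM F)

theorem hM_mul_transpose (h2 : (2 : F) ≠ 0) : ((2 : F)⁻¹ • hM F) * (hM F)ᵀ = 1 := by
  ext i j
  fin_cases i <;> fin_cases j <;>
    simp [hM, Matrix.mul_apply, Fin.sum_univ_two] <;> field_simp <;> ring

theorem hM_mul_transpose' (h2 : (2 : F) ≠ 0) : (hM F) * ((2 : F)⁻¹ • hM F)ᵀ = 1 := by
  ext i j
  fin_cases i <;> fin_cases j <;>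
    simp [hM, Matrix.mul_apply, Fin.sum_univ_two] <;> field_simp <;> ring

theorem GM_mem (h2 : (2 : F) ≠ 0) : GM F ∈ Matrix.symplecticGroup (Fin 2) F := by
  rw [SymplecticGroup.mem_iff]
  unfold GM Matrix.J
  rw [Matrix.fromBlocks_multiply, Matrix.fromBlocks_transpose, Matrix.fromBlocks_multiply]
  simp only [Matrix.zero_mul, Matrix.mul_zero, add_zero, zero_add, Matrix.transpose_zero,
    Matrix.mul_one, Matrix.mul_neg, Matrix.neg_mul, neg_zero, hM_mul_transpose h2,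
    hM_mul_transpose' h2]

/-- `z = diag(-1, 1, -1, 1)` -/
def ZM (F : Type u) [Field F] : Matrix (Fin 2 ⊕ Fin 2) (Fin 2 ⊕ Fin 2) F :=
  Matrix.fromBlocks (Matrix.diagonal ![-1, 1]) 0 0 (Matrix.diagonal ![-1, 1])

theorem Psi_neg_one : PsiMat ((-1 : Matrix.SpecialLinearGroup (Fin 2) F) : Matrix (Fin 2) (Fin 2) F)
    ((1 : Matrix.SpecialLinearGroup (Fin 2) F) : Matrix (Fin 2) (Fin 2) F) = ZM F := by
  unfold PsiMat ZM
  have e : (Matrix.diagonal ![(0 : F), 0] : Matrix (Fin 2) (Fin 2) F) = 0 := by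
    ext i j
    fin_cases i <;> fin_cases j <;> simp
  simp [e]

theorem diag_eq : (Matrix.diagonal ![-1, 1] : Matrix (Fin 2) (Fin 2) F) = !![-1, 0; 0, 1] := by
  ext i j
  fin_cases i <;> fin_cases j <;> simp

theorem swap_hM : (!![0, 1; 1, 0] : Matrix (Fin 2) (Fin 2) F) * hM F =
    (-1 : F) • (hM F * Matrix.diagonal ![-1, 1]) := by
  rw [diag_eq]
  ext i j
  fin_cases i <;> fin_cases j <;> simp [hM, Matrix.mul_apply, Fin.sum_univ_two]

theorem swap_hM' : (!![0, 1; 1, 0] : Matrix (Fin 2) (Fin 2) F) * ((2 : F)⁻¹ • hM F) =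
    (-1 : F) • (((2 : F)⁻¹ • hM F) * Matrix.diagonal ![-1, 1]) := by
  rw [Matrix.mul_smul, swap_hM, Matrix.smul_mul, smul_comm]

theorem T0_mul_GM : T0Mat F * GM F = (-1 : F) • (GM F * ZM F) := by
  unfold T0Mat GM ZM
  rw [Matrix.fromBlocks_multiply, Matrix.fromBlocks_multiply, Matrix.fromBlocks_smul]
  simp only [Matrix.zero_mul, Matrix.mul_zero, add_zero, zero_add, smul_zero, swap_hM, swap_hM']

theorem main : Cfsg.Agent.Lib.Helper38.Sp4Stmt.GFUS.{u} := by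
  intro F _ Ψ t hΨ ht h2
  refine ⟨pr ⟨GM F, GM_mem h2⟩, ?_⟩
  rw [eq_mul_inv_iff_mul_eq, ← map_mul, ← map_mul]
  apply Cfsg.Agent.Lib.Helper43.SpBasic.pr_eq_of_scalar (-1)
  rw [Submonoid.coe_mul, Submonoid.coe_mul, hΨ (-1) 1, Psi_neg_one]
  rw [show (t : Matrix (Fin 2 ⊕ Fin 2) (Fin 2 ⊕ Fin 2) F) = T0Mat F from ht]
  exact T0_mul_GM

end Cfsg.Agent.Lib.Helper56.Sp4GFUS
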