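import Cfsg.Agent.Lib.Helper38.Sp4Stmt

set_option autoImplicit false

/-! Piece GTAU of S5320 (helper56): the swap is an involution of `PSp₄`, swaps the two factors of
the block embedding and is not in its image. -/

namespace Cfsg.Agent.Lib.Helper56.Sp4GTAU

open Matrix Cfsg.Agent.Lib.Helper38.Sp4Stmt

universe u

variable {F : Type u} [Field F]

theorem swap_diag (a b : F) : (!![0, 1; 1, 0] : Matrix (Fin 2) (Fin 2) F) * Matrix.diagonal ![a, b]
    = Matrix.diagonal ![b, a] * !![0, 1; 1, 0] := by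
  ext i j
  fin_cases i <;> fin_cases j <;> simp [Matrix.mul_apply, Fin.sum_univ_two]

theorem swap_sq : (!![0, 1; 1, 0] : Matrix (Fin 2) (Fin 2) F) * !![0, 1; 1, 0] = 1 := by
  ext i j
  fin_cases i <;> fin_cases j <;> simp [Matrix.mul_apply, Fin.sum_univ_two]

theorem T0_mul_Psi (a b : Matrix (Fin 2) (Fin 2) F) :
    T0Mat F * PsiMat a b = PsiMat b a * T0Mat F := by
  unfold T0Mat PsiMat
  rw [Matrix.fromBlocks_multiply, Matrix.fromBlocks_multiply]
  simp only [Matrix.zero_mul, Matrix.mul_zero, add_zero, zero_add, swap_diag]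

theorem T0_sq : T0Mat F * T0Mat F = 1 := by
  unfold T0Mat
  rw [Matrix.fromBlocks_multiply]
  simp only [Matrix.zero_mul, Matrix.mul_zero, add_zero, zero_add, swap_sq]
  exact Matrix.fromBlocks_one

theorem main : Cfsg.Agent.Lib.Helper38.Sp4Stmt.GTAU.{u} := by
  intro F _ Ψ t hΨ ht h2
  have htt : t * t = 1 := by
    apply Subtype.ext
    rw [Submonoid.coe_mul, Submonoid.coe_one]
    rw [show (t : Matrix (Fin 2 ⊕ Fin 2) (Fin 2 ⊕ Fin 2) F) = T0Mat F from ht]
    exact T0_sq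
  refine ⟨?_, ?_, ?_⟩
  · rw [← map_mul, htt, map_one]
  · intro a b
    rw [← map_inv, ← map_mul, ← map_mul]
    congr 1
    rw [mul_inv_eq_iff_eq_mul]
    apply Subtype.ext
    rw [Submonoid.coe_mul, Submonoid.coe_mul, hΨ a b, hΨ b a]
    rw [show (t : Matrix (Fin 2 ⊕ Fin 2) (Fin 2 ⊕ Fin 2) F) = T0Mat F from ht]
    exact T0_mul_Psi _ _
  · intro a b H
    obtain ⟨c, hc, hmat⟩ := Cfsg.Agent.Lib.Helper43.SpBasic.exists_scalar_of_pr_eq
      (by norm_num : 1 ≤ 2) H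
    rw [hΨ a b, show (t : Matrix (Fin 2 ⊕ Fin 2) (Fin 2 ⊕ Fin 2) F) = T0Mat F from ht] at hmat
    have h3 := congrFun (congrFun hmat (Sum.inl 0)) (Sum.inl 1)
    simp [T0Mat, PsiMat] at h3

end Cfsg.Agent.Lib.Helper56.Sp4GTAU
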