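import Mathlib

/-!
# Kernel-checked coset-enumeration certificates (over the trivial subgroup)

A group `G` is generated by the elements `g a`, `a < k` (the letters; inverses of generators can be
given as further letters).  The data are a table `nx i a` (the vertex reached from the vertex `i`
by the letter `a`), a spanning tree (`parV`, `parG`), a rank `rk i a` of every edge (`0` for the
edges of the tree) and, for an edge of positive rank, the number `cj i a` of a relator (a word
starting with the letter `a`, packed in base `k`: length `wl j`, letters `wb j`) which, followed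
from the end of the edge, returns to its origin along edges of smaller rank.

`edge_eq` : if all the checks `edgeOK` hold then `rep i * g a = rep (nx i a)` for all edges, where
`rep` is the product along the tree.  `exists_rep`, `card_le` : with the inverse table `px`, every
element of `G` is some `rep j`, `j < N`, so `Nat.card G ≤ N`.

All checks are boolean functions of natural numbers, so that they can be evaluated by the kernel
on tables packed into large numerals (`fld`).
-/

set_option autoImplicit false

namespace Cfsg.Agent.Lib.Helper56.TC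

/-- The field number `idx`, of width `w` bits (`m = 2 ^ w - 1`), of the packed table `T`. -/
def fld (T w m idx : ℕ) : ℕ := Nat.land (Nat.shiftRight T (Nat.mul w idx)) m

/-- The letters of a word of length `n` packed in base `k`. -/
def decode (k : ℕ) : ℕ → ℕ → List ℕ
  | 0, _ => []
  | n + 1, w => (w % k) :: decode k n (w / k)

/-- Follow the word from `c`: every edge must have rank below `bound`, and the walk ends at `t`. -/
def scanChk (nx rk : ℕ → ℕ → ℕ) (k bound : ℕ) : ℕ → ℕ → ℕ → ℕ → Bool
  | 0, _, c, t => Nat.beq c t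
  | n + 1, w, c, t =>
    Nat.blt (rk c (w % k)) bound && scanChk nx rk k bound n (w / k) (nx c (w % k)) t

/-- The check of one edge. -/
def edgeOK (N k R : ℕ) (nx rk cj : ℕ → ℕ → ℕ) (parV parG wl wb : ℕ → ℕ) (i a : ℕ) : Bool :=
  Nat.blt (nx i a) N &&
    cond (Nat.beq (rk i a) 0)
      (Nat.beq (parV (nx i a)) i && Nat.beq (parG (nx i a)) a && Nat.blt i (nx i a))
      (Nat.blt (cj i a) R && Nat.blt 0 (wl (cj i a)) && Nat.beq (wb (cj i a) % k) a &&
        scanChk nx rk k (rk i a) (wl (cj i a) - 1) (wb (cj i a) / k) (nx i a) i)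

/-- The check of the inverse table. -/
def invOK (N : ℕ) (nx px : ℕ → ℕ → ℕ) (i a : ℕ) : Bool :=
  Nat.blt (px i a) N && Nat.beq (nx (px i a) a) i

/-- `f i` for all `i < n`. -/
def allBelow (f : ℕ → Bool) : ℕ → Bool
  | 0 => true
  | n + 1 => f n && allBelow f n

theorem allBelow_spec (f : ℕ → Bool) : ∀ n, allBelow f n = true → ∀ i < n, f i = true
  | 0, _, i, hi => absurd hi (Nat.not_lt_zero _)
  | n + 1, h, i, hi => by
    simp only [allBelow, Bool.and_eq_true] at h
    rcases Nat.lt_succ_iff_lt_or_eq.mp hi with h1 | h1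
    · exact allBelow_spec f n h.2 i h1
    · rw [h1]; exact h.1

/-- Assembling a check made in `K` chunks of `C`. -/
theorem of_chunks (f : ℕ → Bool) (C K : ℕ)
    (h : ∀ j < K, allBelow (fun i => f (j * C + i)) C = true) : ∀ i < K * C, f i = true := by
  intro i hi
  have hC : 0 < C := by
    rcases Nat.eq_zero_or_pos C with h0 | h0
    · rw [h0] at hi; simp at hi
    · exact h0
  have h1 : i / C < K := Nat.div_lt_of_lt_mul (by rw [Nat.mul_comm]; exact hi)
  have h2 := allBelow_spec _ C (h (i / C) h1) (i % C) (Nat.mod_lt _ hC)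
  have e : i / C * C + i % C = i := by rw [Nat.mul_comm]; exact Nat.div_add_mod i C
  simp only [e] at h2
  exact h2

section Group

variable {G : Type*} [Group G]

/-- The representative of a vertex: the product along the tree. -/
def rep (g : ℕ → G) (parV parG : ℕ → ℕ) (c : ℕ) : G :=
  if h : parV c < c then rep g parV parG (parV c) * g (parG c) else 1
termination_by c
decreasing_by exact h

theorem rep_of_lt (g : ℕ → G) (parV parG : ℕ → ℕ) (c : ℕ) (h : parV c < c) :
    rep g parV parG c = rep g parV parG (parV c) * g (parG c) := by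
  rw [rep, dif_pos h]

theorem rep_zero (g : ℕ → G) (parV parG : ℕ → ℕ) : rep g parV parG 0 = 1 := by
  rw [rep, dif_neg (Nat.not_lt_zero _)]

theorem scan_path (g : ℕ → G) (N k : ℕ) (nx rk : ℕ → ℕ → ℕ) (parV parG : ℕ → ℕ) (bound : ℕ)
    (hk : 0 < k) (hcl : ∀ i < N, ∀ a < k, nx i a < N)
    (ih : ∀ i < N, ∀ a < k, rk i a < bound →
      rep g parV parG i * g a = rep g parV parG (nx i a)) :
    ∀ (n w c t : ℕ), c < N → scanChk nx rk k bound n w c t = true →
      rep g parV parG c * ((decode k n w).map g).prod = rep g parV parG t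
  | 0, w, c, t, _, h => by
    simp only [scanChk] at h
    rw [Nat.eq_of_beq_eq_true h]
    simp [decode]
  | n + 1, w, c, t, hc, h => by
    simp only [scanChk, Bool.and_eq_true] at h
    have hb : w % k < k := Nat.mod_lt _ hk
    have hlt : rk c (w % k) < bound := by
      have := h.1
      rw [Nat.blt_eq] at this
      exact this
    have e := ih c hc (w % k) hb hlt
    have e2 := scan_path g N k nx rk parV parG bound hk hcl ih n (w / k) (nx c (w % k)) t
      (hcl c hc _ hb) h.2
    simp only [decode, List.map_cons, List.prod_cons]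
    rw [← mul_assoc, e, e2]

/-- Soundness of the edge checks. -/
theorem edge_eq (g : ℕ → G) (N k R : ℕ) (nx rk cj : ℕ → ℕ → ℕ) (parV parG wl wb : ℕ → ℕ)
    (hk : 0 < k)
    (hE : ∀ i < N, ∀ a < k, edgeOK N k R nx rk cj parV parG wl wb i a = true)
    (hrel : ∀ j < R, ((decode k (wl j) (wb j)).map g).prod = 1) :
    ∀ i < N, ∀ a < k, rep g parV parG i * g a = rep g parV parG (nx i a) := by
  have hcl : ∀ i < N, ∀ a < k, nx i a < N := by
    intro i hi a ha
    have h := hE i hi a ha
    simp only [edgeOK, Bool.and_eq_true] at h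
    have := h.1
    rw [Nat.blt_eq] at this
    exact this
  suffices H : ∀ r, ∀ i < N, ∀ a < k, rk i a = r →
      rep g parV parG i * g a = rep g parV parG (nx i a) from
    fun i hi a ha => H _ i hi a ha rfl
  intro r
  induction r using Nat.strong_induction_on with
  | _ r ih =>
    intro i hi a ha hr
    have h := hE i hi a ha
    simp only [edgeOK, Bool.and_eq_true] at h
    obtain ⟨-, h2⟩ := h
    by_cases h0 : rk i a = 0
    · have hb : Nat.beq (rk i a) 0 = true := by rw [h0]; rfl
      rw [hb, cond_true] at h2
      simp only [Bool.and_eq_true] at h2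
      obtain ⟨⟨p1, p2⟩, p3⟩ := h2
      have e1 : parV (nx i a) = i := Nat.eq_of_beq_eq_true p1
      have e2 : parG (nx i a) = a := Nat.eq_of_beq_eq_true p2
      have e3 : i < nx i a := by
        rw [Nat.blt_eq] at p3
        exact p3
      rw [rep_of_lt g parV parG (nx i a) (by rw [e1]; exact e3), e1, e2]
    · have hb : Nat.beq (rk i a) 0 = false := by
        cases hbb : Nat.beq (rk i a) 0 with
        | false => rfl
        | true => exact absurd (Nat.eq_of_beq_eq_true hbb) h0
      rw [hb, cond_false] at h2
      simp only [Bool.and_eq_true] at h2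
      obtain ⟨⟨⟨q1, q2⟩, q3⟩, q4⟩ := h2
      have hj : cj i a < R := by
        rw [Nat.blt_eq] at q1
        exact q1
      have hl : 0 < wl (cj i a) := by
        rw [Nat.blt_eq] at q2
        exact q2
      have ha' : wb (cj i a) % k = a := Nat.eq_of_beq_eq_true q3
      obtain ⟨n, hn⟩ : ∃ n, wl (cj i a) = n + 1 := ⟨wl (cj i a) - 1, by omega⟩
      have hrel' := hrel (cj i a) hj
      rw [hn] at hrel'
      simp only [decode, List.map_cons, List.prod_cons] at hrel'
      rw [ha'] at hrel'
      have hn' : wl (cj i a) - 1 = n := by omega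
      rw [hn'] at q4
      have hp := scan_path g N k nx rk parV parG (rk i a) hk hcl
        (fun i' hi' a' ha'' hlt => ih (rk i' a') (by rw [← hr]; exact hlt) i' hi' a' ha'' rfl)
        n (wb (cj i a) / k) (nx i a) i (hcl i hi a ha) q4
      have hT := eq_inv_of_mul_eq_one_right hrel'
      rw [← hp, mul_assoc, hT, inv_mul_cancel, mul_one]

/-- Every element of the subgroup generated by the letters is a representative. -/
theorem exists_rep (g : ℕ → G) (N k : ℕ) (nx px : ℕ → ℕ → ℕ) (parV parG : ℕ → ℕ)
    (hcl : ∀ i < N, ∀ a < k, nx i a < N)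
    (hedge : ∀ i < N, ∀ a < k, rep g parV parG i * g a = rep g parV parG (nx i a))
    (hI : ∀ i < N, ∀ a < k, invOK N nx px i a = true) :
    ∀ x ∈ Subgroup.closure (g '' {a | a < k}), ∀ i < N, ∃ j < N,
      rep g parV parG i * x = rep g parV parG j := by
  intro x hx
  induction hx using Subgroup.closure_induction'' with
  | mem x h =>
    obtain ⟨a, ha, rfl⟩ := h
    intro i hi
    exact ⟨nx i a, hcl i hi a ha, hedge i hi a ha⟩
  | inv_mem x h =>
    obtain ⟨a, ha, rfl⟩ := h
    intro i hi
    have h1 := hI i hi a ha
    simp only [invOK, Bool.and_eq_true] at h1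
    have h2 : px i a < N := by
      have := h1.1
      rw [Nat.blt_eq] at this
      exact this
    have h3 : nx (px i a) a = i := Nat.eq_of_beq_eq_true h1.2
    refine ⟨px i a, h2, ?_⟩
    have h4 := hedge (px i a) h2 a ha
    rw [h3] at h4
    rw [← h4, mul_inv_cancel_right]
  | one =>
    intro i hi
    exact ⟨i, hi, mul_one _⟩
  | mul x y _ _ ihx ihy =>
    intro i hi
    obtain ⟨j, hj, e⟩ := ihx i hi
    obtain ⟨l, hl, e'⟩ := ihy j hj
    exact ⟨l, hl, by rw [← mul_assoc, e, e']⟩

/-- The main theorem: a group generated by the letters, with a certificate of `N` vertices,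
consists of the `N` representatives. -/
theorem exists_rep_of_top (g : ℕ → G) (N k R : ℕ) (nx rk cj px : ℕ → ℕ → ℕ)
    (parV parG wl wb : ℕ → ℕ) (hk : 0 < k) (hN : 0 < N)
    (hE : ∀ i < N, ∀ a < k, edgeOK N k R nx rk cj parV parG wl wb i a = true)
    (hI : ∀ i < N, ∀ a < k, invOK N nx px i a = true)
    (hrel : ∀ j < R, ((decode k (wl j) (wb j)).map g).prod = 1)
    (hgen : Subgroup.closure (g '' {a | a < k}) = ⊤) :
    ∀ x : G, ∃ j < N, x = rep g parV parG j := by
  have hcl : ∀ i < N, ∀ a < k, nx i a < N := by
    intro i hi a ha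
    have h := hE i hi a ha
    simp only [edgeOK, Bool.and_eq_true] at h
    have := h.1
    rw [Nat.blt_eq] at this
    exact this
  have hedge := edge_eq g N k R nx rk cj parV parG wl wb hk hE hrel
  intro x
  obtain ⟨j, hj, e⟩ := exists_rep g N k nx px parV parG hcl hedge hI x
    (by rw [hgen]; exact Subgroup.mem_top x) 0 hN
  rw [rep_zero, one_mul] at e
  exact ⟨j, hj, e⟩

theorem card_le (g : ℕ → G) (N k R : ℕ) (nx rk cj px : ℕ → ℕ → ℕ)
    (parV parG wl wb : ℕ → ℕ) (hk : 0 < k) (hN : 0 < N)
    (hE : ∀ i < N, ∀ a < k, edgeOK N k R nx rk cj parV parG wl wb i a = true)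
    (hI : ∀ i < N, ∀ a < k, invOK N nx px i a = true)
    (hrel : ∀ j < R, ((decode k (wl j) (wb j)).map g).prod = 1)
    (hgen : Subgroup.closure (g '' {a | a < k}) = ⊤) :
    Finite G ∧ Nat.card G ≤ N := by
  have hs : Function.Surjective (fun j : Fin N => rep g parV parG j.val) := by
    intro x
    obtain ⟨j, hj, e⟩ := exists_rep_of_top g N k R nx rk cj px parV parG wl wb hk hN hE hI hrel
      hgen x
    exact ⟨⟨j, hj⟩, e.symm⟩
  refine ⟨Finite.of_surjective _ hs, ?_⟩
  have := Nat.card_le_card_of_surjective _ hs
  rwa [Nat.card_fin] at this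

end Group

end Cfsg.Agent.Lib.Helper56.TC
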