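import Cfsg.Agent.Lib.Helper56.U3Rep
import Cfsg.Agent.S0157
import Cfsg.Agent.Lib.CT.Ops
import Cfsg.Agent.Lib.CT.NormOne
import Cfsg.Agent.Lib.Helper3.Irr
import Cfsg.Agent.Lib.Helper74.BLCore
import Cfsg.Prelude.Def_DegreeGraph

/-!
# Character degrees of the presented group `P` of order 6048

`P` has irreducible characters of degrees 6, 14 and 21: the character of the representation
`rep D6` has norm one; `χ7 * χ7 - (1 + χ7 + χ27)` (with `χ27` from the doubly transitive action on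
28 points) is a generalized character of norm one and degree 14; `χ6 * χ6 - (1 + η14)` is one of
degree 21.  The norms are sums over the 14 classes (`U3Cls.sum_class`).
-/

set_option autoImplicit false

namespace Cfsg.Agent.Lib.Helper56.U3Chars

open Cfsg Cfsg.Agent.Lib.Helper56.TC Cfsg.Agent.Lib.Helper56.P6048 Cfsg.Agent.Lib.Helper56.P6048S
  Cfsg.Agent.Lib.Helper56.U3Cls Cfsg.Agent.Lib.Helper56.U3Rep
open scoped ComplexConjugate

noncomputable instance fintypeP : Fintype P := by
  haveI := finite_P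
  exact Fintype.ofFinite P

/-- Inner products of class functions with Gaussian integer values at the class representatives. -/
theorem inner_eq (φ ψ : P → ℂ) (hφ : IsClassFunction P φ) (hψ : IsClassFunction P ψ)
    (a b : ℕ → GaussianInt)
    (ha : ∀ c < 14, φ (rp (crep c)) = GaussianInt.toComplex (a c))
    (hb : ∀ c < 14, ψ (rp (crep c)) = GaussianInt.toComplex (b c)) (m : GaussianInt)
    (hm : ∑ c ∈ Finset.range 14, (sz c : GaussianInt) * (a c * star (b c)) = 6048 * m) :
    classInner φ ψ = GaussianInt.toComplex m := by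
  unfold classInner
  rw [card_P]
  have hcf : ∀ g h : P, (fun g => φ g * conj (ψ g)) (h * g * h⁻¹) = (fun g => φ g * conj (ψ g)) g := by
    intro g h
    show φ (h * g * h⁻¹) * conj (ψ (h * g * h⁻¹)) = φ g * conj (ψ g)
    rw [hφ g h, hψ g h]
  rw [sum_class (fun g => φ g * conj (ψ g)) hcf]
  have e : ∑ c ∈ Finset.range 14, (sz c : ℂ) * (φ (rp (crep c)) * conj (ψ (rp (crep c))))
      = GaussianInt.toComplex (∑ c ∈ Finset.range 14, (sz c : GaussianInt) * (a c * star (b c))) := by
    rw [map_sum]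
    apply Finset.sum_congr rfl
    intro c hc
    rw [ha c (Finset.mem_range.mp hc), hb c (Finset.mem_range.mp hc), map_mul, map_mul,
      map_natCast, GaussianInt.toComplex_star]
  rw [e, hm, map_mul]
  have h6 : GaussianInt.toComplex (6048 : GaussianInt) = (6048 : ℂ) := map_ofNat _ _
  rw [h6]
  push_cast
  rw [← mul_assoc, inv_mul_cancel₀ (by norm_num), one_mul]

theorem isClassFunction_of_gen {θ : P → ℂ} (h : IsGeneralizedCharacter P θ) :
    IsClassFunction P θ := by
  obtain ⟨χ, ψ, hχ, hψ, rfl⟩ := h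
  intro g k
  show χ (k * g * k⁻¹) - ψ (k * g * k⁻¹) = χ g - ψ g
  rw [Cfsg.Agent.Lib.Helper3.Irr.IsCharacter.isClassFunction hχ g k,
    Cfsg.Agent.Lib.Helper3.Irr.IsCharacter.isClassFunction hψ g k]

/-! ### The characters of degrees 6 and 7 -/

noncomputable def χ6 : P → ℂ := (rep D6).character
noncomputable def χ7 : P → ℂ := (rep D7).character

theorem isChar6 : IsCharacter P χ6 := Cfsg.Agent.Lib.CT.Ops.isCharacter_of_rep (rep D6)
theorem isChar7 : IsCharacter P χ7 := Cfsg.Agent.Lib.CT.Ops.isCharacter_of_rep (rep D7)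

def a6 (c : ℕ) : GaussianInt := tv6.getD c 0
def a7 (c : ℕ) : GaussianInt := tv7.getD c 0

theorem v6 (c : ℕ) (hc : c < 14) : χ6 (rp (crep c)) = GaussianInt.toComplex (a6 c) := val6 c hc
theorem v7 (c : ℕ) (hc : c < 14) : χ7 (rp (crep c)) = GaussianInt.toComplex (a7 c) := val7 c hc

theorem sum6 : ∑ c ∈ Finset.range 14, (sz c : GaussianInt) * (a6 c * star (a6 c)) = 6048 * 1 := by
  decide +kernel

theorem irr6 : IsIrrCharacter P χ6 := by
  apply Cfsg.Agent.Lib.CT.NormOne.irr_of_inner_self_eq_one isChar6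
  have hcf := Cfsg.Agent.Lib.Helper3.Irr.IsCharacter.isClassFunction isChar6
  rw [inner_eq χ6 χ6 hcf hcf a6 a6 v6 v6 1 sum6, map_one]

theorem χ6_one : χ6 1 = 6 := by
  have h := v6 0 (by norm_num)
  rw [crep_zero] at h
  rw [h]
  have e : a6 0 = 6 := by decide +kernel
  rw [e]
  exact map_ofNat _ _

theorem mem6 : 6 ∈ charDegrees P := by
  refine ⟨⟨χ6, irr6⟩, ?_⟩
  show ⌊(χ6 1).re⌋₊ = 6
  rw [χ6_one]
  norm_num

/-! ### The character of degree 27 -/

noncomputable instance actP : MulAction P (Fin 28) := MulAction.compHom (Fin 28) ρ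

theorem smul_def (p : P) (q : Fin 28) : p • q = ρ p q := rfl

theorem two_trans' : MulAction.IsMultiplyPretransitive P (Fin 28) 2 := by
  rw [MulAction.is_two_pretransitive_iff]
  intro a b c d hab hcd
  obtain ⟨g1, h1, h2⟩ := two_trans a b hab
  obtain ⟨g2, h3, h4⟩ := two_trans c d hcd
  refine ⟨g2⁻¹ * g1, ?_, ?_⟩
  · rw [mul_smul, smul_def g1, h1, ← h3, ← smul_def g2, inv_smul_smul]
  · rw [mul_smul, smul_def g1, h2, ← h4, ← smul_def g2, inv_smul_smul]

instance pretransP : MulAction.IsPretransitive P (Fin 28) := by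
  haveI := two_trans'
  exact MulAction.isPretransitive_of_is_two_pretransitive

noncomputable def χ27 : P → ℂ := fun g => (Nat.card (MulAction.fixedBy (Fin 28) g) : ℂ) - 1

theorem irr27 : IsIrrCharacter P χ27 :=
  (Cfsg.Agent.S0157.result (G := P) (Fin 28) (by simp)).mpr two_trans'

/-- The numbers of fixed points of the class representatives. -/
def fxL : List ℕ := [28, 4, 1, 0, 0, 1, 1, 1, 1, 0, 2, 2, 4, 4]

theorem fix_count : ∀ c < 14, (Finset.univ.filter (fun q : Fin 28 =>
    ((cwL.getD c []).map (lett pa pb)).prod q = q)).card = fxL.getD c 0 := by decide +kernel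

theorem card_fixedBy (g : P) : Nat.card (MulAction.fixedBy (Fin 28) g)
    = (Finset.univ.filter (fun q : Fin 28 => ρ g q = q)).card := by
  rw [← Nat.card_eq_finsetCard]
  apply Nat.card_congr
  apply Equiv.subtypeEquivRight
  intro q
  simp [MulAction.mem_fixedBy, smul_def]

def a27 (c : ℕ) : GaussianInt := (fxL.getD c 0 : ℕ) - 1

theorem v27 (c : ℕ) (hc : c < 14) : χ27 (rp (crep c)) = GaussianInt.toComplex (a27 c) := by
  show (Nat.card (MulAction.fixedBy (Fin 28) (rp (crep c))) : ℂ) - 1 = _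
  rw [card_fixedBy, ← wd_spec (crep c) (crep_lt c hc), cw_eq c hc, ρ_word, fix_count c hc]
  simp [a27]

/-! ### The irreducible character of degree 14 -/

noncomputable def ψ14 : P → ℂ := (fun _ => (1 : ℂ)) + χ7 + χ27
noncomputable def η14 : P → ℂ := χ7 * χ7 - ψ14

theorem isGen14 : IsGeneralizedCharacter P η14 :=
  ⟨χ7 * χ7, ψ14, Cfsg.Agent.Lib.CT.Ops.isCharacter_mul isChar7 isChar7,
    Cfsg.Agent.Lib.CT.Ops.isCharacter_add
      (Cfsg.Agent.Lib.CT.Ops.isCharacter_add Cfsg.Agent.Lib.CT.Ops.isCharacter_one isChar7)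
      (Cfsg.Agent.Lib.CT.Ops.IsIrrCharacter.isCharacter irr27), rfl⟩

def a14 (c : ℕ) : GaussianInt := a7 c * a7 c - (1 + a7 c + a27 c)

theorem v14 (c : ℕ) (hc : c < 14) : η14 (rp (crep c)) = GaussianInt.toComplex (a14 c) := by
  show χ7 (rp (crep c)) * χ7 (rp (crep c)) - (1 + χ7 (rp (crep c)) + χ27 (rp (crep c))) = _
  rw [v7 c hc, v27 c hc]
  simp [a14]

theorem sum14 : ∑ c ∈ Finset.range 14, (sz c : GaussianInt) * (a14 c * star (a14 c)) = 6048 * 1 := by
  decide +kernel

theorem η14_one : η14 1 = 14 := by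
  have h := v14 0 (by norm_num)
  rw [crep_zero] at h
  rw [h]
  have e : a14 0 = 14 := by decide +kernel
  rw [e]
  exact map_ofNat _ _

theorem irr14 : IsIrrCharacter P η14 := by
  have hcf := isClassFunction_of_gen isGen14
  apply Cfsg.Agent.Lib.Helper74.BLCore.irr_of_norm_one isGen14 ?_ 14 (by norm_num)
  · rw [η14_one]; norm_num
  · rw [inner_eq η14 η14 hcf hcf a14 a14 v14 v14 1 sum14, map_one]

theorem mem14 : 14 ∈ charDegrees P := by
  refine ⟨⟨η14, irr14⟩, ?_⟩
  show ⌊(η14 1).re⌋₊ = 14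
  rw [η14_one]
  norm_num

/-! ### The irreducible character of degree 21 -/

noncomputable def ψ21 : P → ℂ := (fun _ => (1 : ℂ)) + η14
noncomputable def η21 : P → ℂ := χ6 * χ6 - ψ21

theorem isGen21 : IsGeneralizedCharacter P η21 :=
  ⟨χ6 * χ6, ψ21, Cfsg.Agent.Lib.CT.Ops.isCharacter_mul isChar6 isChar6,
    Cfsg.Agent.Lib.CT.Ops.isCharacter_add Cfsg.Agent.Lib.CT.Ops.isCharacter_one
      (Cfsg.Agent.Lib.CT.Ops.IsIrrCharacter.isCharacter irr14), rfl⟩

def a21 (c : ℕ) : GaussianInt := a6 c * a6 c - (1 + a14 c)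

theorem v21 (c : ℕ) (hc : c < 14) : η21 (rp (crep c)) = GaussianInt.toComplex (a21 c) := by
  show χ6 (rp (crep c)) * χ6 (rp (crep c)) - (1 + η14 (rp (crep c))) = _
  rw [v6 c hc, v14 c hc]
  simp [a21]

theorem sum21 : ∑ c ∈ Finset.range 14, (sz c : GaussianInt) * (a21 c * star (a21 c)) = 6048 * 1 := by
  decide +kernel

theorem η21_one : η21 1 = 21 := by
  have h := v21 0 (by norm_num)
  rw [crep_zero] at h
  rw [h]
  have e : a21 0 = 21 := by decide +kernel
  rw [e]
  exact map_ofNat _ _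

theorem irr21 : IsIrrCharacter P η21 := by
  have hcf := isClassFunction_of_gen isGen21
  apply Cfsg.Agent.Lib.Helper74.BLCore.irr_of_norm_one isGen21 ?_ 21 (by norm_num)
  · rw [η21_one]; norm_num
  · rw [inner_eq η21 η21 hcf hcf a21 a21 v21 v21 1 sum21, map_one]

theorem mem21 : 21 ∈ charDegrees P := by
  refine ⟨⟨η21, irr21⟩, ?_⟩
  show ⌊(η21 1).re⌋₊ = 21
  rw [η21_one]
  norm_num

end Cfsg.Agent.Lib.Helper56.U3Chars
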